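import Cfsg.Agent.E7P.Lie.Exp
import Cfsg.Agent.H944.E7Two

/-!
# S5932, LIE 4: the alcove arguments ALC and GRAM (helper56)

* `pR r y` : the value of the root `r` at the vector `y` of values of the simple roots, `sL w` : the Weyl group;
* `Rk7 S` : the roots with `S` span; `rk7_of_int`; `alc`, `alc_four`, `alc_real`;
* `vals`, `adM_nL_tv` : the Weyl group on the toral elements; `tor7`; `gram`.
-/

set_option autoImplicit false
set_option maxRecDepth 100000

namespace Cfsg.Agent.E7P.Lb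

open Cfsg Cfsg.Lie Matrix Module
open Cfsg.Agent.ChevalleyStructure.RootVec (rt)
open Cfsg.Agent.R2.T1 Cfsg.Agent.E7P.Kf
open Cfsg.Agent.R2.PX (del)

universe u

/-- the marks -/
def mk : Fin 7 → ℕ := ![2, 2, 3, 4, 3, 2, 1]

/-- the Cartan matrix -/
def CM : Fin 7 → Fin 7 → ℤ := ![![2, 0, -1, 0, 0, 0, 0], ![0, 2, 0, -1, 0, 0, 0], ![-1, 0, 2, -1, 0, 0, 0],
  ![0, -1, -1, 2, -1, 0, 0], ![0, 0, 0, -1, 2, -1, 0], ![0, 0, 0, 0, -1, 2, -1], ![0, 0, 0, 0, 0, -1, 2]]

theorem car_tab : ∀ i j : Fin 7, chevE7.cartan i (chevE7.simple j) = CM i j := by decide +kernel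

theorem CM_symm : ∀ i j, CM i j = CM j i := by decide +kernel

theorem car_top : ∀ i : Fin 7, chevE7.cartan i 125 = if i = 0 then 1 else 0 := by decide +kernel

theorem rt_mk : ∀ i : Fin 7, rt chevE7 125 i = mk i := by decide +kernel

theorem rt_bd : ∀ r < 126, (∀ i : Fin 7, 0 ≤ rt chevE7 r i ∧ rt chevE7 r i ≤ mk i) ∨
    ∀ i : Fin 7, rt chevE7 r i ≤ 0 ∧ -rt chevE7 r i ≤ mk i := by decide +kernel

theorem rt_refl : ∀ j : Fin 7, ∀ r < 126, chevE7.reflectRoot j r < 126 ∧ ∀ i : Fin 7,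
    rt chevE7 (chevE7.reflectRoot j r) i = rt chevE7 r i - if i = j then chevE7.cartan j r else 0 := by decide +kernel

theorem car_eq {r : ℕ} (hr : r < 126) (i : Fin 7) : chevE7.cartan i r = ∑ j : Fin 7, rt chevE7 r j * CM i j := by
  have h := rc_eq hr i
  rw [Finset.sum_range] at h
  exact h.trans (Finset.sum_congr rfl fun j _ => by rw [car_tab])

section W
variable {R R' : Type*} [CommRing R] [CommRing R']

/-- the value of a root -/
def pR (r : ℕ) (y : Fin 7 → R) : R := ∑ i : Fin 7, (rt chevE7 r i : R) * y i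

theorem pR_int (r : ℕ) (y : Fin 7 → ℤ) : pR r y = pc r y := rfl

theorem pR_real {r : ℕ} (hr : r < 126) (x : E) : pR r x = bf x (rv r) := by
  rw [bf_rv x hr]
  exact Finset.sum_congr rfl fun i _ => mul_comm _ _

theorem map_cast_mul (φ : R →+ R') (n : ℤ) (a : R) : φ (n * a) = n * φ a := by
  rw [← zsmul_eq_mul, map_zsmul, zsmul_eq_mul]

theorem pR_map (φ : R →+ R') (r : ℕ) (y : Fin 7 → R) : pR r (fun i => φ (y i)) = φ (pR r y) := by
  simp only [pR, map_sum, map_cast_mul]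

theorem pR_single (r : ℕ) (i : Fin 7) (a : R) : pR r (Pi.single i a) = (rt chevE7 r i : R) * a := by
  simp [pR, Pi.single_apply]

theorem pR_sub (r : ℕ) (y y' : Fin 7 → R) : pR r (y - y') = pR r y - pR r y' := by
  simp only [pR, Pi.sub_apply, mul_sub, Finset.sum_sub_distrib]

theorem pR_smul (r : ℕ) (a : R) (y : Fin 7 → R) : pR r (a • y) = a * pR r y := by
  simp only [pR, Pi.smul_apply, smul_eq_mul, Finset.mul_sum, mul_left_comm]

/-- the simple reflections -/
def sl (j : Fin 7) : (Fin 7 → R) →ₗ[R] (Fin 7 → R) where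
  toFun v i := v i - (CM j i : R) * v j
  map_add' v v' := by funext i; simp only [Pi.add_apply]; ring
  map_smul' a v := by funext i; simp only [Pi.smul_apply, smul_eq_mul, RingHom.id_apply]; ring

theorem sl_apply (j : Fin 7) (v : Fin 7 → R) (i : Fin 7) : sl j v i = v i - (CM j i : R) * v j := rfl

theorem sl_sl (j : Fin 7) (v : Fin 7 → R) : sl j (sl j v) = v := by
  funext i
  rw [sl_apply, sl_apply, sl_apply, ← car_tab j j, cartan_self j j.2]
  push_cast
  ring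

/-- the Weyl group -/
def sL (w : List (Fin 7)) : (Fin 7 → R) →ₗ[R] (Fin 7 → R) := w.foldr (fun i f => sl i ∘ₗ f) LinearMap.id

theorem sL_cons (j : Fin 7) (w : List (Fin 7)) (v : Fin 7 → R) : sL (j :: w) v = sl j (sL w v) := rfl

theorem sL_append (w w' : List (Fin 7)) (v : Fin 7 → R) : sL (w ++ w') v = sL w (sL w' v) := by
  induction w with
  | nil => rfl
  | cons j w ih => rw [List.cons_append, sL_cons, sL_cons, ih]

theorem eq_zero_of_sL {w : List (Fin 7)} {v : Fin 7 → R} (h : sL w v = 0) : v = 0 := by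
  induction w with
  | nil => exact h
  | cons j w ih => exact ih (by rw [← sl_sl j (sL w v), ← sL_cons, h, map_zero])

theorem sL_map (φ : R →+ R') (w : List (Fin 7)) (v : Fin 7 → R) : sL w (fun i => φ (v i)) = fun i => φ (sL w v i) := by
  induction w with
  | nil => rfl
  | cons j w ih =>
    funext i
    rw [sL_cons, ih, sL_cons, sl_apply, sl_apply, map_sub, map_cast_mul]

theorem sL_real (w : List (Fin 7)) (x : E) : sL w x = wL w x := by
  induction w with
  | nil => rfl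
  | cons j w ih =>
    funext i
    rw [sL_cons, ih, wL_cons, sl_apply, sr_apply, CM_symm, ← car_tab, mul_comm]
    rfl

theorem pR_sl {r : ℕ} (hr : r < 126) (j : Fin 7) (v : Fin 7 → R) : pR r (sl j v) = pR (chevE7.reflectRoot j r) v := by
  simp only [pR, sl_apply, (rt_refl j r hr).2, car_eq hr j, mul_sub, Finset.sum_sub_distrib]
  push_cast
  simp only [sub_mul, Finset.sum_sub_distrib, ite_mul, zero_mul, Finset.sum_ite_eq', Finset.mem_univ, if_true,
    Finset.sum_mul, mul_assoc]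

theorem sl_rc {r : ℕ} (hr : r < 126) (j : Fin 7) :
    sl j (fun i => (rc r i : R)) = fun i => (rc (chevE7.reflectRoot j r) i : R) := by
  funext i
  rw [sl_apply, rc, rc, rc, chk_refl j j.2 r hr i i.2, car_tab, CM_symm]
  push_cast
  ring

/-- the roots with `S` span -/
def Rk7 (S : ℕ → Prop) : Prop := ∀ ζ : E, (∀ r < 126, S r → bf ζ (rv r) = 0) → ζ = 0

theorem Rk7.mono {S S' : ℕ → Prop} (h : Rk7 S) (h' : ∀ r < 126, S r → S' r) : Rk7 S' :=
  fun ζ hζ => h ζ fun r hr hs => hζ r hr (h' r hr hs)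

/-- it suffices to test integral cocharacters -/
theorem rk7_of_int {S : ℕ → Prop} (h : ∀ l : Fin 7 → ℤ, (∀ r < 126, S r → ∑ i, rc r i * l i = 0) → l = 0) : Rk7 S := by
  intro ζ hζ
  obtain ⟨m, hm⟩ := exists_int (fun r : Fin 126 => rc r) ζ
  have h1 : m = 0 := h m fun r hr hs => by exact_mod_cast (bf_lE m _).symm.trans ((hm ⟨r, hr⟩).1 (hζ r hr hs))
  have h2 : ∀ r < 126, bf ζ (rv r) ≤ 0 := fun r hr => not_lt.1 fun h3 => by
    have h4 := (hm ⟨r, hr⟩).2 h3
    rw [bf_lE, h1] at h4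
    simp at h4
  funext i
  have h3 := simple_lt7 i i.2
  have h4 := h2 _ h3
  have h5 := h2 (125 - chevE7.simple i) (by omega)
  rw [rv_neg h3, map_neg] at h5
  exact (bf_al ζ i).symm.trans (le_antisymm h4 (neg_nonpos.1 h5))

theorem Rk7.int {S : ℕ → Prop} (h : Rk7 S) {l : Fin 7 → ℤ} (hl : ∀ r < 126, S r → ∑ i, rc r i * l i = 0) : l = 0 := by
  have h1 := h (lE l) fun r hr hs => by rw [rv, bf_lE, hl r hr hs, Int.cast_zero]
  funext i
  have h2 := bf_lE l (Pi.single i 1)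
  rw [h1] at h2
  simpa [Pi.single_apply, eq_comm] using h2

theorem rk7_sL {ι : Type*} {f : ι → Fin 7 → R} (h : Rk7 fun r => ∀ i, pR r (f i) = 0) (w : List (Fin 7)) :
    Rk7 fun r => ∀ i, pR r (sL w (f i)) = 0 := by
  induction w with
  | nil => exact h
  | cons j w ih =>
    intro ζ hζ
    rw [← sr_sr j ζ, ih (sr j ζ) fun r hr hs => ?_, map_zero]
    rw [← sr_iso j, sr_sr, sr_rv j hr]
    exact hζ _ (rt_refl j r hr).1 fun i => by rw [← pR_sl hr, sL_cons, sl_sl, hs]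

end W

/-! ### the alcove -/

theorem exists_alcove {N : ℕ} (hN : 0 < N) (v : Fin 7 → ZMod N) :
    ∃ (w : List (Fin 7)) (y : Fin 7 → ℕ), (sL w v = fun i => (y i : ZMod N)) ∧ ∑ i, mk i * y i ≤ N := by
  obtain ⟨y, ⟨w, hw⟩, h⟩ := H944.Kac.exists_alcove H944.E7Two.e7T hN _ _ 36 (by norm_num) H944.E7Two.theta7 (by decide) _
    H944.E7Two.pos7 (fun x => ∃ w, sL w v = x) (fun x j ⟨w, hw⟩ => ⟨j :: w, by
      funext i
      rw [sL_cons, hw, sl_apply, ← car_tab]
      rfl⟩) ⟨[], rfl⟩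
  refine ⟨w, y, hw, ?_⟩
  simp only [Fin.sum_univ_seven, mk, Matrix.cons_val] at h ⊢
  omega

theorem ker_alc {N : ℕ} {y : Fin 7 → ℕ} (h : ∑ i, mk i * y i ≤ N) {r : ℕ} (hr : r < 126)
    (h0 : pR r (fun i => (y i : ZMod N)) = 0) :
    ∃ ε : ℤ, (∀ j, y j ≠ 0 → rt chevE7 r j = ε * mk j) ∧ (∑ i, mk i * y i ≠ N → ε = 0) := by
  have h1 : (N : ℤ) ∣ ∑ i : Fin 7, rt chevE7 r i * y i := by
    rw [← ZMod.intCast_zmod_eq_zero_iff_dvd, ← h0]
    simp [pR]
  have key : ∀ a : Fin 7 → ℤ, (∀ i, 0 ≤ a i ∧ a i ≤ mk i) → (N : ℤ) ∣ ∑ i, a i * y i →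
      ∃ ε : ℤ, (∀ j, y j ≠ 0 → a j = ε * mk j) ∧ (∑ i, mk i * y i ≠ N → ε = 0) := fun a ha hd => by
    have b1 : ∀ i ∈ Finset.univ, 0 ≤ a i * y i := fun i _ => mul_nonneg (ha i).1 (Nat.cast_nonneg _)
    have b2 : ∀ i ∈ Finset.univ, 0 ≤ (mk i - a i) * y i := fun i _ => mul_nonneg (sub_nonneg.2 (ha i).2) (Nat.cast_nonneg _)
    have b3 : ∑ i, (mk i - a i) * y i = ((∑ i, mk i * y i : ℕ) : ℤ) - ∑ i, a i * y i := by
      push_cast
      simp only [sub_mul, Finset.sum_sub_distrib]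
    have b4 := Finset.sum_nonneg b2
    rcases (Finset.sum_nonneg b1).eq_or_lt with b5 | b5
    · exact ⟨0, fun j hj => by
        simpa [hj] using (Finset.sum_eq_zero_iff_of_nonneg b1).1 b5.symm j (Finset.mem_univ j), fun _ => rfl⟩
    · have b6 := Int.le_of_dvd b5 hd
      refine ⟨1, fun j hj => ?_, fun h2 => by omega⟩
      have b7 := (Finset.sum_eq_zero_iff_of_nonneg b2).1 (by omega) j (Finset.mem_univ j)
      simp only [mul_eq_zero, Nat.cast_eq_zero, hj, or_false] at b7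
      omega
  rcases rt_bd r hr with h2 | h2
  · exact key _ h2 h1
  · obtain ⟨ε, h3, h4⟩ := key (fun i => -rt chevE7 r i) (fun i => ⟨neg_nonneg.2 (h2 i).1, (h2 i).2⟩) (by
      simpa only [neg_mul, Finset.sum_neg_distrib, dvd_neg] using h1)
    exact ⟨-ε, fun j hj => by rw [neg_mul, ← h3 j hj, neg_neg], fun h5 => by rw [h4 h5, neg_zero]⟩

theorem mk_pos : ∀ i, 0 < mk i ∧ mk i ≤ 4 := by decide

/-- **ALC** -/
theorem alc {N : ℕ} (hN : 0 < N) {v : Fin 7 → ZMod N} (h : Rk7 fun r => pR r v = 0) :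
    ∃ (w : List (Fin 7)) (i : Fin 7) (s : ℕ), s * mk i = N ∧ sL w v = Pi.single i (s : ZMod N) := by
  obtain ⟨w, y, hw, hy⟩ := exists_alcove hN v
  have h1 := rk7_sL (f := fun _ : Unit => v) (h.mono fun r _ hs _ => hs) w
  rw [hw] at h1
  by_cases h2 : ∑ i, mk i * y i = N
  · obtain ⟨i, -, hi⟩ := Finset.exists_ne_zero_of_sum_ne_zero (h2.trans_ne hN.ne')
    have h3 : ∀ j, j ≠ i → y j = 0 := fun j hj => by
      by_contra h4
      have h5 := h1 (Pi.single i (mk j : ℝ) - Pi.single j (mk i : ℝ)) fun r hr hs => by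
        obtain ⟨ε, h6, -⟩ := ker_alc hy hr (hs ())
        rw [← pR_real hr, pR_sub, pR_single, pR_single, h6 i (right_ne_zero_of_mul hi), h6 j h4]
        push_cast
        ring
      have h6 := congrFun h5 i
      rw [Pi.sub_apply, Pi.single_eq_same, Pi.single_eq_of_ne hj.symm, sub_zero, Pi.zero_apply, Nat.cast_eq_zero] at h6
      exact (mk_pos j).1.ne' h6
    refine ⟨w, i, y i, ?_, hw.trans (funext fun j => ?_)⟩
    · rw [← h2, Finset.sum_eq_single i (fun j _ hj => by rw [h3 j hj, mul_zero]) (by simp), mul_comm]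
    · by_cases h4 : j = i
      · rw [h4, Pi.single_eq_same]
      · rw [Pi.single_eq_of_ne h4, h3 j h4, Nat.cast_zero]
  · have h3 := h1 (fun i => (y i : ℝ)) fun r hr hs => by
      obtain ⟨ε, h4, h5⟩ := ker_alc hy hr (hs ())
      rw [← pR_real hr]
      refine Finset.sum_eq_zero fun j _ => ?_
      by_cases h6 : y j = 0
      · simp [h6]
      · rw [h4 j h6, h5 h2, zero_mul, Int.cast_zero, zero_mul]
    refine ⟨w, 6, N, mul_one N, hw.trans (funext fun j => ?_)⟩
    rw [Nat.cast_eq_zero.1 (congrFun h3 j), ZMod.natCast_self, Pi.single_zero, Nat.cast_zero, Pi.zero_apply]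

theorem alc_four {N : ℕ} (hN : 0 < N) {y : Fin 7 → ℤ} (h : Rk7 fun r => (N : ℤ) ∣ pc r y) :
    ∃ m : ℕ, 0 < m ∧ m ≤ 4 ∧ ∀ j, (N : ℤ) ∣ m * y j := by
  obtain ⟨w, i, s, h1, h2⟩ := alc hN (v := fun i => (y i : ZMod N)) (h.mono fun r _ hs =>
    (pR_map (Int.castAddHom _) r y).trans ((ZMod.intCast_zmod_eq_zero_iff_dvd _ _).2 hs))
  refine ⟨mk i, (mk_pos i).1, (mk_pos i).2, fun j => ?_⟩
  have h3 := congrFun (eq_zero_of_sL (w := w) (v := (mk i : ZMod N) • fun i => (y i : ZMod N)) (by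
    rw [map_smul, h2, ← Pi.single_smul, smul_eq_mul, ← Nat.cast_mul, mul_comm, h1, ZMod.natCast_self, Pi.single_zero])) j
  rw [← ZMod.intCast_zmod_eq_zero_iff_dvd]
  push_cast
  exact h3

/-- **ALC** for real coweights -/
theorem alc_real {β : E} {n : ℝ} (hn : n ≠ 0) (h : Rk7 fun r => ∃ z : ℤ, bf β (rv r) = z * n) :
    ∃ m : ℕ, 0 < m ∧ m ≤ 4 ∧ ∀ j, ∃ z : ℤ, m * β j = z * n := by
  obtain ⟨φ, hφ⟩ := (Algebra.linearMap ℚ ℝ).exists_leftInverse_of_injective
    (LinearMap.ker_eq_bot.2 (algebraMap ℚ ℝ).injective)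
  have h1 : ∀ z : ℤ, φ z = z := fun z => by simpa using LinearMap.congr_fun hφ (z : ℚ)
  have h2 : ∀ r < 126, ∀ z : ℤ, bf β (rv r) = z * n → pR r (n⁻¹ • β) = z := fun r hr z hz => by
    rw [pR_smul, pR_real hr, hz, mul_comm, mul_inv_cancel_right₀ hn]
  have h3 := h ((n⁻¹ • β) - fun i => ((φ ((n⁻¹ • β) i) : ℚ) : ℝ)) fun r hr ⟨z, hz⟩ => by
    have h4 := pR_map ((Rat.castHom ℝ).toAddMonoidHom.comp φ.toAddMonoidHom) r (n⁻¹ • β)
    rw [← pR_real hr, pR_sub, sub_eq_zero]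
    refine Eq.trans ?_ h4.symm
    rw [h2 r hr z hz]
    change _ = ((φ z : ℚ) : ℝ)
    rw [h1, Rat.cast_intCast]
  obtain ⟨d, hd⟩ := IsLocalization.exist_integer_multiples_of_finite (nonZeroDivisors ℤ) fun i => φ ((n⁻¹ • β) i)
  choose y hy using hd
  have hd0 : (d : ℤ) ≠ 0 := nonZeroDivisors.coe_ne_zero d
  have h4 : (fun i => (y i : ℝ)) = ((d : ℤ) : ℝ) • n⁻¹ • β := funext fun i => by
    have h5 := congrArg (Rat.cast : ℚ → ℝ) (hy i)
    rw [eq_intCast, zsmul_eq_mul] at h5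
    rw [Pi.smul_apply, sub_eq_zero.1 (congrFun h3 i)]
    rw [Rat.cast_mul, Rat.cast_intCast] at h5
    exact (Rat.cast_intCast _).symm.trans h5
  obtain ⟨m, m1, m2, m3⟩ := alc_four (Int.natAbs_pos.2 hd0) (y := y) (h.mono fun r hr ⟨z, hz⟩ => by
    have h5 := pR_map (Int.castAddHom ℝ) r y
    rw [Int.natAbs_dvd]
    refine ⟨z, Int.cast_injective (α := ℝ) (h5.symm.trans ?_)⟩
    change pR r (fun i => (y i : ℝ)) = _
    rw [h4, pR_smul, h2 r hr z hz, Int.cast_mul])
  refine ⟨m, m1, m2, fun j => ?_⟩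
  obtain ⟨z, hz⟩ := Int.natAbs_dvd.1 (m3 j)
  have h5 := congrArg (Int.cast : ℤ → ℝ) hz
  have h6 : ((d : ℤ) : ℝ) ≠ 0 := Int.cast_ne_zero.2 hd0
  rw [Int.cast_mul, Int.cast_mul, congrFun h4 j, Int.cast_natCast] at h5
  refine ⟨z, mul_left_cancel₀ h6 ?_⟩
  simp only [Pi.smul_apply, smul_eq_mul] at h5
  field_simp at h5
  linear_combination ((d : ℤ) : ℝ) * h5

/-! ### toral elements -/

variable {K : Type u} [Field K]

/-- the values of the simple roots -/
def vals (l : Fin 7 → K) : Fin 7 → K := fun i => rval (chevE7.simple i) (tv l)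

theorem rval_tv (r : ℕ) (l : Fin 7 → K) : rval r (tv l) = ∑ i : Fin 7, (chevE7.cartan i r : K) * l i := rfl

theorem vals_apply (l : Fin 7 → K) (j : Fin 7) : vals l j = ∑ i, (CM i j : K) * l i := by
  simp only [vals, rval_tv, car_tab]

theorem rval_eq {r : ℕ} (hr : r < 126) (l : Fin 7 → K) : rval r (tv l) = pR r (vals l) := by
  simp only [rval_tv, pR, vals_apply, car_eq hr, Finset.mul_sum]
  rw [Finset.sum_comm]
  push_cast
  simp only [Finset.sum_mul, mul_assoc]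

theorem vals_sub (l l' : Fin 7 → K) : vals (l - l') = vals l - vals l' := by
  funext j
  simp only [Pi.sub_apply, vals_apply, mul_sub, Finset.sum_sub_distrib]

theorem vals_smul (a : K) (l : Fin 7 → K) : vals (a • l) = a • vals l := by
  funext j
  simp only [Pi.smul_apply, vals_apply, smul_eq_mul, Finset.mul_sum, mul_left_comm]

theorem vals_eq_zero (h2 : (2 : K) ≠ 0) {l : Fin 7 → K} (h : vals l = 0) : l = 0 :=
  cartan_inj h2 fun i => (Finset.sum_congr rfl fun j _ =>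
    congrArg (fun z : ℤ => (z : K) * l j) ((car_tab i j).trans (CM_symm i j))).trans
    ((vals_apply l i).symm.trans (congrFun h i))

theorem vals_inj (h2 : (2 : K) ≠ 0) {l l' : Fin 7 → K} (h : vals l = vals l') : l = l' :=
  sub_eq_zero.1 (vals_eq_zero h2 (by rw [vals_sub, h, sub_self]))

theorem tv_smul (a : K) (l : Fin 7 → K) : tv (a • l) = a • tv l := by
  funext i
  rcases i with i | r
  · rfl
  · exact (mul_zero a).symm

theorem tv_sub (l l' : Fin 7 → K) : tv (l - l') = tv l - tv l' := by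
  funext i
  rcases i with i | r
  · rfl
  · exact (sub_zero 0).symm

theorem tv_single (j : Fin 7) : tv (Pi.single j (1 : K)) = Pi.single (Sum.inl j) 1 := by
  funext i
  rcases i with i | r
  · by_cases h : i = j
    · rw [h]
      exact (Pi.single_eq_same j 1).trans (Pi.single_eq_same (M := fun _ : chevE7.Idx => K) _ 1).symm
    · exact (Pi.single_eq_of_ne h 1).trans
        (Pi.single_eq_of_ne (M := fun _ : chevE7.Idx => K) (fun e => h (Sum.inl_injective e)) 1).symm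
  · exact (Pi.single_eq_of_ne (M := fun _ : chevE7.Idx => K) Sum.inr_ne_inl 1).symm

theorem cor_neg : ∀ j i : Fin 7, (chevE7.coroot.getD (125 - chevE7.simple j) #[]).getD i 0 = if i = j then -1 else 0 := by
  decide +kernel

theorem Hd_neg (j : Fin 7) : R2.PX.Hd K (125 - chevE7.simple j) = -R2.PX.Hi K j := by
  refine (R2.PX.Hd_eq _).trans ?_
  change ∑ i : Fin 7, (((chevE7.coroot.getD (125 - chevE7.simple j) #[]).getD i 0 : ℤ) : K) • R2.PX.Hi K i = _
  simp only [cor_neg]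
  simp

theorem vals_refl (j : Fin 7) (l : Fin 7 → K) : vals (l - vals l j • Pi.single j 1) = sl j (vals l) := by
  funext i
  rw [vals_sub, vals_smul, sl_apply, Pi.sub_apply, Pi.smul_apply, vals_apply (Pi.single j 1), smul_eq_mul, mul_comm]
  simp [Pi.single_apply]

theorem adM_ns_tv (j : Fin 7) (l : Fin 7 → K) : adM K (ns K j) *ᵥ tv l = tv (l - vals l j • Pi.single j 1) := by
  have hs := simple_lt7 j j.2
  have hs' : 125 - chevE7.simple j < 126 := by omega
  have h1 : adM K (xs K (chevE7.simple j) 1) *ᵥ Pi.single (Sum.inr ⟨_, hs⟩) 1 = Pi.single (Sum.inr ⟨_, hs⟩) 1 :=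
    Mu.del_injective (by rw [R2.PX.adM_xs, R2.PX.del_x_self hs, R2.PX.del_inr])
  have h2 : adM K (xs K (125 - chevE7.simple j) (-1)) *ᵥ Pi.single (Sum.inr ⟨_, hs⟩) 1 =
      Pi.single (Sum.inr ⟨_, hs⟩) 1 + tv (Pi.single j 1) - Pi.single (Sum.inr ⟨_, hs'⟩) 1 := Mu.del_injective (by
    have h3 := R2.PX.del_x_neg hs' (-1 : K)
    simp only [sub_sub_r hs] at h3
    rw [R2.PX.adM_xs, h3, map_sub, map_add, tv_single, R2.PX.del_inr, R2.PX.del_inr, Hd_neg]
    erw [R2.PX.del_inl]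
    simp)
  have h3 : rval (125 - chevE7.simple j) (tv l) = -vals l j := by
    simp only [vals, rval_tv, fun i : Fin 7 => chk_neg _ hs i i.2, Int.cast_neg, neg_mul, Finset.sum_neg_distrib]
  have h4 : rval (chevE7.simple j) (tv (l - vals l j • Pi.single j 1)) = -vals l j := by
    refine (congrFun (vals_refl j l) j).trans ?_
    rw [sl_apply, ← car_tab, cartan_self j j.2]
    push_cast
    ring
  have h5 := adM_xs_tv hs 1 (l - vals l j • Pi.single j 1)
  rw [h4, tv_sub, tv_smul, mulVec_sub, mulVec_smul] at h5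
  rw [ns_eq, map_mul, map_mul, ← mulVec_mulVec, ← mulVec_mulVec, adM_xs_tv hs, mulVec_sub, mulVec_smul, adM_xs_tv hs', h2, h3,
    tv_sub, tv_smul]
  simp only [mulVec_sub, mulVec_add, mulVec_smul, h1]
  change _ - (1 * vals l j) • _ = _
  linear_combination (norm := module) h5

/-- the Weyl group on the toral elements -/
theorem adM_nL_tv (w : List (Fin 7)) (l : Fin 7 → K) : ∃ l', adM K (nL K w) *ᵥ tv l = tv l' ∧ vals l' = sL w (vals l) := by
  induction w with
  | nil => exact ⟨l, by rw [nL_nil, map_one, one_mulVec], rfl⟩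
  | cons j w ih =>
    obtain ⟨l', h1, h2⟩ := ih
    exact ⟨_, by rw [nL_cons, map_mul, ← mulVec_mulVec, h1, adM_ns_tv], by rw [vals_refl, h2, sL_cons]⟩

theorem exists_addHom (p : ℕ) [Fact p.Prime] [CharP K p] {a : K} (h : a ≠ 0) : ∃ φ : K →+ ZMod p, φ a ≠ 0 := by
  let _ := ZMod.algebra K p
  by_contra h1
  push Not at h1
  exact h ((forall_dual_apply_eq_zero_iff (ZMod p) a).1 fun φ => h1 φ.toAddMonoidHom)

/-- the coweight `ω₃` -/
def t3 (K : Type u) [Field K] : Fin 7 → K := ![3, 4, 6, 8, 6, 4, 2]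

theorem vals_t3 : vals (t3 K) = Pi.single 2 1 := by
  funext j
  rw [vals_apply]
  fin_cases j <;> simp [Fin.sum_univ_seven, CM, t3] <;> norm_num

theorem rval_t3 {r : ℕ} (hr : r < 126) : rval r (tv (t3 K)) = (rt chevE7 r 2 : K) := by
  rw [rval_eq hr, vals_t3, pR_single, mul_one]
  rfl

/-- the coordinates of the root system `A₅ A₂` -/
def pot : Fin 9 → Fin 7 → ℤ := ![0, ![0, 1, 0, 0, 0, 0, 0], ![0, 1, 0, 1, 0, 0, 0], ![0, 1, 0, 1, 1, 0, 0],
  ![0, 1, 0, 1, 1, 1, 0], ![0, 1, 0, 1, 1, 1, 1], 0, ![2, 2, 3, 4, 3, 2, 1], ![1, 2, 3, 4, 3, 2, 1]]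

theorem chk_pot : ∀ r < 126, 3 ∣ rt chevE7 r 2 → ∃ a b : Fin 9, ∀ j : Fin 7, rt chevE7 r j = pot a j - pot b j := by
  decide +kernel

theorem a2a5 {u : Fin 7 → K} (h : Rk7 fun r => 3 ∣ rt chevE7 r 2 ∧ pR r u = 0) : u = Pi.single 2 (u 2) := by
  classical
  obtain ⟨T, hT⟩ : ∃ T : Fin 9 → ℝ, ∀ a, T a = if ∑ j, (pot a j : K) * u j = 0 then 0 else 1 := ⟨_, fun _ => rfl⟩
  obtain ⟨ζ, h1⟩ : ∃ ζ : E, ∀ a, ∑ j, (pot a j : ℝ) * ζ j = T a := by
    have h0 : T 0 = 0 := by simp [hT, pot]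
    have h6 : T 6 = 0 := by simp [hT, pot]
    refine ⟨![T 7 - T 8, T 1, (2 * T 8 - T 7 + 2 * T 1 - T 2 - T 3 - T 4 - T 5) / 3, T 2 - T 1, T 3 - T 2, T 4 - T 3,
      T 5 - T 4], fun a => ?_⟩
    fin_cases a <;> simp [pot, Fin.sum_univ_seven, h0, h6] <;> ring
  have h2 := h ζ fun r hr ⟨h3, h4⟩ => by
    obtain ⟨a, b, h5⟩ := chk_pot r hr h3
    rw [← pR_real hr]
    simp only [pR, h5, Int.cast_sub, sub_mul, Finset.sum_sub_distrib] at h4 ⊢
    rw [h1, h1, hT, hT, sub_eq_zero.1 h4, sub_self]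
  have h3 : ∀ a, ∑ j, (pot a j : K) * u j = 0 := fun a => by
    by_contra h4
    simpa [h2, hT, h4] using h1 a
  have a1 := h3 1
  have a2 := h3 2
  have a3 := h3 3
  have a4 := h3 4
  have a5 := h3 5
  have a7 := h3 7
  have a8 := h3 8
  simp [pot, Fin.sum_univ_seven] at a1 a2 a3 a4 a5 a7 a8
  funext j
  fin_cases j <;> simp
  · linear_combination a7 - a8
  · exact a1
  · linear_combination a2 - a1
  · linear_combination a3 - a2
  · linear_combination a4 - a3
  · linear_combination a5 - a4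

theorem w42 : sL [2, 3, 4, 5, 6, 0, 2, 3, 4, 5, 1, 3, 4, 2, 3, 0, 2, 1, 3, 4] (Pi.single 4 1 : Fin 7 → ZMod 3) =
    Pi.single 2 1 := by decide +kernel

theorem mk_three : ∀ i, mk i = 3 → i = 2 ∨ i = 4 := by decide

/-- **toral subspaces on which seven independent roots vanish** -/
theorem tor7 {p : ℕ} (hp : p.Prime) [CharP K p] (h2 : (2 : K) ≠ 0) {C : Submodule K (Fin 7 → K)} (hC : C ≠ ⊥)
    (h : Rk7 fun r => ∀ l ∈ C, rval r (tv l) = 0) :
    p = 3 ∧ ∃ w, ∀ l ∈ C, ∃ c : K, adM K (nL K w) *ᵥ tv l = c • tv (t3 K) := by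
  have := Fact.mk hp
  obtain ⟨l0, hl0, h0⟩ := (Submodule.ne_bot_iff C).1 hC
  obtain ⟨i0, hi0⟩ := Function.ne_iff.1 fun e => h0 (vals_eq_zero h2 e)
  obtain ⟨φ, hφ⟩ := exists_addHom p hi0
  obtain ⟨w, i, s, h1, h3⟩ := alc hp.pos (v := fun i => φ (vals l0 i)) (h.mono fun r hr hs => by
    rw [pR_map, ← rval_eq hr, hs l0 hl0, map_zero])
  obtain ⟨rfl, h4⟩ : s = 1 ∧ mk i = p := by
    rcases hp.eq_one_or_self_of_dvd s ⟨_, h1.symm⟩ with rfl | rfl
    · exact ⟨rfl, by simpa using h1⟩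
    · rw [ZMod.natCast_self, Pi.single_zero] at h3
      exact absurd (congrFun (eq_zero_of_sL h3) i0) hφ
  obtain rfl : p = 3 := by
    have h5 := mk_pos i
    have h6 : p ≠ 2 := by
      rintro rfl
      exact h2 (CharP.cast_eq_zero K 2)
    have h7 : p ≠ 4 := by
      rintro rfl
      exact absurd hp (by norm_num)
    have := hp.two_le
    omega
  obtain ⟨w', h5⟩ : ∃ w', sL w' (fun i => φ (vals l0 i)) = Pi.single 2 1 := by
    rw [Nat.cast_one] at h3
    rcases mk_three i h4 with rfl | rfl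
    · exact ⟨w, h3⟩
    · exact ⟨_ ++ w, by rw [sL_append, h3, w42]⟩
  refine ⟨rfl, w', fun l hl => ?_⟩
  obtain ⟨l', h6, h7⟩ := adM_nL_tv w' l
  have h8 := a2a5 (u := vals l') ((rk7_sL (f := fun x : C => vals x.1) (h.mono fun r hr hs x => by
    rw [← rval_eq hr, hs x.1 x.2]) w').mono fun r hr hs => ⟨?_, h7 ▸ hs ⟨l, hl⟩⟩)
  · refine ⟨vals l' 2, ?_⟩
    rw [h6, ← tv_smul]
    exact congrArg tv (vals_inj h2 (by rw [vals_smul, vals_t3, ← Pi.single_smul, smul_eq_mul, mul_one, ← h8]))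
  · have h9 := pR_map φ r (sL w' (vals l0))
    rw [hs ⟨l0, hl0⟩, map_zero, ← sL_map, h5, pR_single, mul_one] at h9
    exact (ZMod.intCast_zmod_eq_zero_iff_dvd _ 3).1 h9

theorem arm {a b c z : K} (h6 : (6 : K) ≠ 0) (h1 : a = 0 ∨ 2 * a = b) (h2 : b = 0 ∨ 2 * b = a + c)
    (h3 : c = 0 ∨ 2 * c = b + z) : (∃ k ∈ [(0 : ℤ), 6, 8, 9], 12 * c = k * z ∧ (k = 9 → 4 * a = z ∧ 2 * b = z)) ∧
      (z = 0 → a = 0 ∧ b = 0 ∧ c = 0) := by
  have h4 : ∃ k ∈ [(0 : ℤ), 6, 8, 9], 12 * c = k * z ∧ (k = 9 → 4 * a = z ∧ 2 * b = z) := by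
    rcases h3 with h3 | h3
    · exact ⟨0, by simp, by simp [h3], by simp⟩
    rcases h2 with h2 | h2
    · exact ⟨6, by simp, by push_cast; linear_combination 6 * h3 + 6 * h2, by simp⟩
    rcases h1 with h1 | h1
    · exact ⟨8, by simp, by push_cast; linear_combination 8 * h3 + 4 * h2 + 4 * h1, by simp⟩
    · exact ⟨9, by simp, by push_cast; linear_combination 9 * h3 + 6 * h2 + 3 * h1,
        fun _ => ⟨by linear_combination h3 + 2 * h2 + 3 * h1, by linear_combination h3 + 2 * h2 + h1⟩⟩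
  refine ⟨h4, fun hz => ?_⟩
  obtain ⟨k, -, h5, -⟩ := h4
  have h12 : (36 : K) ≠ 0 := fun e => mul_ne_zero h6 h6 (by linear_combination e)
  have hc : c = 0 := mul_left_cancel₀ h12 (by linear_combination 3 * h5 + 3 * k * hz)
  have hb : b = 0 := mul_left_cancel₀ h6 (by
    rcases h2 with h2 | h2
    · linear_combination 6 * h2
    rcases h1 with h1 | h1
    · linear_combination 3 * h2 + 3 * h1 + 3 * hc
    · linear_combination 4 * h2 + 2 * h1 + 4 * hc)
  refine ⟨mul_left_cancel₀ h6 ?_, hb, hc⟩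
  rcases h1 with h1 | h1
  · linear_combination 6 * h1
  · linear_combination 3 * h1 + 3 * hb

/-- the proper subdiagrams of the extended diagram are nondegenerate -/
theorem ext_diag (h : (5040 : K) ≠ 0) {a : K} {c : Fin 7 → K} (ha : a = 0 ∨ 2 * a = c 0)
    (hc : ∀ i, c i = 0 ∨ ∑ j, (CM i j : K) * c j = if i = 0 then a else 0) (h0 : a = 0 ∨ ∃ i, c i = 0) :
    a = 0 ∧ c = 0 := by
  have h6 : (6 : K) ≠ 0 := fun e => h (by linear_combination 840 * e)
  have c0 := hc 0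
  have c1 := hc 1
  have c2 := hc 2
  have c3 := hc 3
  have c4 := hc 4
  have c5 := hc 5
  have c6 := hc 6
  simp only [Fin.sum_univ_seven, CM, Matrix.cons_val, Fin.reduceEq, if_false] at c0 c1 c2 c3 c4 c5 c6
  norm_num at c0 c1 c2 c3 c4 c5 c6
  obtain ⟨⟨k, k1, k2, k3⟩, k4⟩ := arm (z := c 3) h6 ha (c0.imp_right fun e => by linear_combination e)
    (c2.imp_right fun e => by linear_combination e)
  obtain ⟨⟨m, m1, m2, m3⟩, m4⟩ := arm (z := c 3) h6 (c6.imp_right fun e => by linear_combination e)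
    (c5.imp_right fun e => by linear_combination e) (c4.imp_right fun e => by linear_combination e)
  obtain ⟨n, n1, n2⟩ : ∃ n ∈ [(0 : ℤ), 6], 12 * c 1 = n * c 3 := by
    rcases c1 with e | e
    · exact ⟨0, by simp, by simp [e]⟩
    · exact ⟨6, by simp, by push_cast; linear_combination 6 * e⟩
  have hz : c 3 = 0 := by
    refine c3.elim id fun e => mul_left_cancel₀ h ?_
    rcases (by decide : ∀ k ∈ [(0 : ℤ), 6, 8, 9], ∀ m ∈ [(0 : ℤ), 6, 8, 9], ∀ n ∈ [(0 : ℤ), 6],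
      24 - k - m - n ∣ 5040 ∨ (k = 9 ∧ m = 9 ∧ n = 6)) k k1 m m1 n n1 with ⟨d, hd⟩ | ⟨rfl, rfl, rfl⟩
    · have h1 := congrArg (Int.cast : ℤ → K) hd
      push_cast at h1
      linear_combination c 3 * h1 + d * (12 * e + k2 + m2 + n2)
    · push_cast at k2 m2 n2
      obtain ⟨a1, a2⟩ := k3 rfl
      obtain ⟨b1, b2⟩ := m3 rfl
      rcases h0 with h0 | ⟨i, h0⟩
      · linear_combination -5040 * a1 + 20160 * h0
      fin_cases i <;> simp only [Fin.reduceFinMk] at h0
      · linear_combination -5040 * a2 + 10080 * h0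
      · linear_combination -840 * n2 + 10080 * h0
      · linear_combination -560 * k2 + 6720 * h0
      · linear_combination 5040 * h0
      · linear_combination -560 * m2 + 6720 * h0
      · linear_combination -5040 * b2 + 10080 * h0
      · linear_combination -5040 * b1 + 20160 * h0
  obtain ⟨a1, a2, a3⟩ := k4 hz
  obtain ⟨b1, b2, b3⟩ := m4 hz
  have a4 : c 1 = 0 := mul_left_cancel₀ h (by linear_combination 420 * n2 + 420 * n * hz)
  exact ⟨a1, funext fun i => by fin_cases i <;> assumption⟩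

theorem gram_zmod {p : ℕ} [Fact p.Prime] (h11 : 11 ≤ p) {v : Fin 7 → ZMod p}
    (h : v ∈ Submodule.span (ZMod p) {x | ∃ s < 126, pR s v = 0 ∧ x = fun i => (rc s i : ZMod p)}) : v = 0 := by
  obtain ⟨w, y, hw, hy⟩ := exists_alcove (by omega) v
  refine eq_zero_of_sL (w := w) ?_
  have h1 : sL w v ∈ Submodule.span (ZMod p) {x | ∃ s < 126, pR s (sL w v) = 0 ∧ x = fun i => (rc s i : ZMod p)} := by
    clear hw
    induction w with
    | nil => exact h
    | cons j w ih =>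
      have h2 := Submodule.mem_map_of_mem (f := sl j) ih
      rw [Submodule.map_span] at h2
      refine Submodule.span_mono ?_ h2
      rintro _ ⟨_, ⟨s, s1, s2, rfl⟩, rfl⟩
      exact ⟨_, (rt_refl j s s1).1, by rw [← pR_sl s1, sL_cons, sl_sl, s2], sl_rc s1 j⟩
  rw [hw] at h1 ⊢
  obtain ⟨c, a, h2, h3, h4⟩ : ∃ (c : Fin 7 → ZMod p) (a : ZMod p), (∀ j, y j ≠ 0 → c j = 0) ∧ (∑ i, mk i * y i ≠ p → a = 0) ∧
      ∀ i, (fun i => (y i : ZMod p)) i = ∑ j, (CM i j : ZMod p) * c j - if i = 0 then a else 0 := by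
    refine Submodule.span_induction (p := fun x _ => ∃ (c : Fin 7 → ZMod p) (a : ZMod p), (∀ j, y j ≠ 0 → c j = 0) ∧
      (∑ i, mk i * y i ≠ p → a = 0) ∧ ∀ i, x i = ∑ j, (CM i j : ZMod p) * c j - if i = 0 then a else 0) ?_
      ⟨0, 0, by simp⟩ ?_ ?_ h1
    · rintro _ ⟨s, s1, s2, rfl⟩
      obtain ⟨ε, e1, e2⟩ := ker_alc hy s1 s2
      refine ⟨fun j => ((rt chevE7 s j - ε * mk j : ℤ) : ZMod p), -ε, fun j hj => by simp [e1 j hj],
        fun e => by rw [e2 e, Int.cast_zero, neg_zero], fun i => ?_⟩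
      have e3 := congrArg (Int.cast : ℤ → ZMod p) ((car_top i).symm.trans (car_eq (by norm_num) i))
      simp only [rc, car_eq s1, rt_mk] at e3 ⊢
      push_cast at e3 ⊢
      simp only [mul_comm (CM _ _ : ZMod p), sub_mul, Finset.sum_sub_distrib, mul_assoc, ← Finset.mul_sum, ← e3]
      split_ifs <;> ring
    · rintro x x' - - ⟨c, a, c1, c2, c3⟩ ⟨c', a', d1, d2, d3⟩
      refine ⟨c + c', a + a', fun j hj => by simp [c1 j hj, d1 j hj], fun e => by simp [c2 e, d2 e], fun i => ?_⟩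
      simp only [Pi.add_apply, c3, d3, mul_add, Finset.sum_add_distrib]
      split_ifs <;> ring
    · rintro t x - ⟨c, a, c1, c2, c3⟩
      refine ⟨t • c, t * a, fun j hj => by simp [c1 j hj], fun e => by simp [c2 e], fun i => ?_⟩
      simp only [Pi.smul_apply, smul_eq_mul, c3, mul_left_comm _ t, ← Finset.mul_sum]
      split_ifs <;> ring
  have h5 : ((5040 : ℕ) : ZMod p) ≠ 0 := fun e => by
    have h6 := (ZMod.natCast_eq_zero_iff _ _).1 e
    have h7 := (Fact.out : p.Prime).dvd_factorial.1 (show p ∣ Nat.factorial 7 from h6)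
    omega
  refine (ext_diag (a := a) (c := c) (by exact_mod_cast h5) ?_
    (fun i => (em (y i = 0)).symm.imp (h2 i) fun e => by
      have h6 := h4 i
      simp only [e, Nat.cast_zero] at h6
      exact sub_eq_zero.1 h6.symm) ?_).elim fun h6 h7 => funext fun i => by simpa [h6, h7] using h4 i
  · refine (em _).symm.imp h3 fun e => ?_
    have h6 := congrArg (Nat.cast : ℕ → ZMod p) e
    simp only [ZMod.natCast_self, Nat.cast_sum, Nat.cast_mul] at h6
    simp only [h4, Fin.sum_univ_seven, mk, CM, Matrix.cons_val, Fin.reduceEq, if_false] at h6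
    norm_num at h6
    linear_combination -h6
  · refine (em _).symm.imp h3 fun e => ?_
    obtain ⟨i, -, hi⟩ := Finset.exists_ne_zero_of_sum_ne_zero (e.trans_ne (by omega))
    exact ⟨i, h2 i (right_ne_zero_of_mul hi)⟩

theorem kf_tv (l l' : Fin 7 → K) : kf K (tv l) (tv l') = ∑ i, l' i * vals l i := by
  rw [kf_comm, kf_apply, dotProduct, Fintype.sum_sum_type]
  simp only [tv_inr, zero_mul, Finset.sum_const_zero, add_zero, KM_mulVec_inl]
  exact Finset.sum_congr rfl fun i _ => congrArg (l' i * ·) ((Finset.sum_congr rfl fun j _ =>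
    congrArg (fun z : ℤ => (z : K) * l j) ((car_tab i j).trans (CM_symm i j))).trans (vals_apply l i).symm)

/-- **GRAM** -/
theorem gram {p : ℕ} (hp : p.Prime) [CharP K p] (h11 : 11 ≤ p) {l : Fin 7 → K}
    (h : ∀ l', (∀ r < 126, rval r (tv l) = 0 → rval r (tv l') = 0) → kf K (tv l) (tv l') = 0) : l = 0 := by
  have := Fact.mk hp
  have h1 : vals l ∈ Submodule.span K {x | ∃ s < 126, pR s (vals l) = 0 ∧ x = fun i => (rc s i : K)} := by
    by_contra h2
    obtain ⟨f, f1, f2⟩ := Submodule.exists_dual_map_eq_bot_of_notMem h2 inferInstance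
    have f3 : ∀ x, f x = ∑ i, x i * f (Pi.single i 1) := fun x => by
      conv_lhs => rw [pi_eq_sum_univ' x]
      simp only [map_sum, map_smul, smul_eq_mul]
    refine f1 (((f3 _).trans ?_).trans (h (fun i => f (Pi.single i 1)) fun r hr h3 => (f3 _).symm.trans ?_))
    · rw [kf_tv]
      exact Finset.sum_congr rfl fun i _ => mul_comm _ _
    · exact (Submodule.eq_bot_iff _).1 f2 _ (Submodule.mem_map_of_mem (Submodule.subset_span ⟨r, hr, rval_eq hr l ▸ h3, rfl⟩))
  refine vals_eq_zero (fun e => ?_) (funext fun i => ?_)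
  · have h2 := Nat.le_of_dvd two_pos ((CharP.cast_eq_zero_iff K p 2).1 e)
    omega
  by_contra h2
  obtain ⟨φ, hφ⟩ := exists_addHom p h2
  refine hφ (congrFun (gram_zmod h11 (v := fun i => φ (vals l i)) (Submodule.span_mono
    (s := {x | ∃ s < 126, pR s (vals l) = 0 ∧ x = fun i => (rc s i : ZMod p)}) ?_ ?_)) i)
  · rintro _ ⟨s, s1, s2, rfl⟩
    exact ⟨s, s1, by rw [pR_map, s2, map_zero], rfl⟩
  · refine Submodule.span_induction (p := fun x _ => ∀ φ : K →+ ZMod p, (fun i => φ (x i)) ∈ Submodule.span (ZMod p)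
      {x | ∃ s < 126, pR s (vals l) = 0 ∧ x = fun i => (rc s i : ZMod p)}) ?_ (fun φ => ?_) (fun x x' _ _ c c' φ => ?_)
      (fun t x _ c φ => c (φ.comp (AddMonoidHom.mulLeft t))) h1 φ
    · rintro _ ⟨s, s1, s2, rfl⟩ φ
      have h3 : (fun i => φ (rc s i : K)) = φ 1 • fun i => (rc s i : ZMod p) := funext fun i => by
        rw [Pi.smul_apply, smul_eq_mul, mul_comm, ← map_cast_mul, mul_one]
      rw [h3]
      exact Submodule.smul_mem _ _ (Submodule.subset_span ⟨s, s1, s2, rfl⟩)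
    · simp only [Pi.zero_apply, map_zero]
      exact zero_mem _
    · simp only [Pi.add_apply, map_add]
      exact add_mem (c φ) (c' φ)

end Cfsg.Agent.E7P.Lb
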