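import Mathlib

/-!
# S5932, LIE-a (helper76): diagonalisable matrices

`Dg X d` : `X` is similar to `diagonal d`.  `Dg.inter` : intertwiners respect Jordan decompositions;
`Dg.exists_eig`, `Dg.eig_zero`, `Dg.eig_mem` : eigenvectors of `ad X`; `Dg.exists_generic`.
-/

set_option autoImplicit false

namespace Cfsg.Agent.E7P.La

open Matrix

variable {K : Type*} [Field K] {I : Type*} [Fintype I] [DecidableEq I]

theorem diag_inter {d d' : I → K} {N N' Y : Matrix I I K} (hN : IsNilpotent N) (hN' : IsNilpotent N')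
    (hc : Commute (diagonal d) N) (hc' : Commute (diagonal d') N')
    (h : Y * (diagonal d + N) = (diagonal d' + N') * Y) : Y * diagonal d = diagonal d' * Y := by
  let Φ : Module.End K (Matrix I I K) := LinearMap.mulLeft K (diagonal d') - LinearMap.mulRight K (diagonal d)
  let Ψ : Module.End K (Matrix I I K) := LinearMap.mulRight K N - LinearMap.mulLeft K N'
  have hΦ : ∀ Z, Φ Z = diagonal d' * Z - Z * diagonal d := fun _ => rfl
  have hΨ : ∀ Z, Ψ Z = Z * N - N' * Z := fun _ => rfl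
  have h1 : IsNilpotent Ψ := Commute.isNilpotent_sub (LinearMap.commute_mulLeft_right N' N).symm
    (by rwa [LinearMap.isNilpotent_mulRight_iff]) (by rwa [LinearMap.isNilpotent_mulLeft_iff])
  have h2 : Commute Ψ Φ := by
    refine LinearMap.ext fun Z => ?_
    show Ψ (Φ Z) = Φ (Ψ Z)
    rw [hΦ, hΨ, hΦ, hΨ]
    simp only [Matrix.mul_sub, Matrix.sub_mul, Matrix.mul_assoc]
    rw [hc.eq, ← Matrix.mul_assoc N' (diagonal d'), ← hc'.eq, Matrix.mul_assoc]
    abel
  have h3 : Φ Y = Ψ Y := by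
    rw [hΦ, hΨ]
    rw [Matrix.mul_add, Matrix.add_mul] at h
    rw [sub_eq_sub_iff_add_eq_add, ← h, add_comm]
  have h4 : ∀ m : ℕ, (Φ ^ m) Y = (Ψ ^ m) Y := by
    intro m
    induction m with
    | zero => rfl
    | succ m ih =>
      rw [pow_succ, Module.End.mul_apply, h3, ← Module.End.mul_apply, ← (h2.pow_right m).eq, Module.End.mul_apply, ih,
        pow_succ', Module.End.mul_apply]
  have h5 : ∀ (m : ℕ) i j, (Φ ^ m) Y i j = (d' i - d j) ^ m * Y i j := by
    intro m
    induction m with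
    | zero => intro i j; simp
    | succ m ih =>
      intro i j
      rw [pow_succ', Module.End.mul_apply, hΦ, Matrix.sub_apply, Matrix.diagonal_mul, Matrix.mul_diagonal, ih]
      ring
  obtain ⟨m, hm⟩ := h1
  ext i j
  have h6 := h5 m i j
  rw [h4, hm, LinearMap.zero_apply, Matrix.zero_apply] at h6
  rw [Matrix.diagonal_mul, Matrix.mul_diagonal]
  rcases mul_eq_zero.1 h6.symm with h7 | h7
  · rw [sub_eq_zero.1 (pow_eq_zero_iff'.1 h7).1, mul_comm]
  · rw [h7, zero_mul, mul_zero]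

/-- the commutator -/
def ad (X : Matrix I I K) : Module.End K (Matrix I I K) := LinearMap.mulLeft K X - LinearMap.mulRight K X

theorem ad_apply (X Y : Matrix I I K) : ad X Y = X * Y - Y * X := rfl

theorem ad_diag (d : I → K) (Y : Matrix I I K) (i j : I) : ad (diagonal d) Y i j = (d i - d j) * Y i j := by
  rw [ad_apply, Matrix.sub_apply, diagonal_mul, mul_diagonal]
  ring

open Classical in
theorem diag_eig (d : I → K) (U : Submodule K (Matrix I I K)) (hU : ∀ Y ∈ U, ad (diagonal d) Y ∈ U) :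
    ∀ (n : ℕ) (Y : Matrix I I K), Y ∈ U → (Finset.univ.filter fun q : I × I => Y q.1 q.2 ≠ 0).card ≤ n →
      ad (diagonal d) Y ≠ 0 → ∃ W ∈ U, W ≠ 0 ∧ ∃ i j, d i - d j ≠ 0 ∧ ad (diagonal d) W = (d i - d j) • W := by
  have key : ∀ Y : Matrix I I K, ad (diagonal d) Y ≠ 0 → ∃ i j, d i - d j ≠ 0 ∧ Y i j ≠ 0 := fun Y hY => by
    by_contra hc
    refine hY (Matrix.ext fun i j => ?_)
    rw [ad_diag, Matrix.zero_apply]
    by_contra h
    exact hc ⟨i, j, left_ne_zero_of_mul h, right_ne_zero_of_mul h⟩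
  intro n
  induction n with
  | zero =>
    intro Y _ hc h
    obtain ⟨i, j, -, h2⟩ := key Y h
    exact absurd (Finset.card_pos.2 ⟨(i, j), Finset.mem_filter.2 ⟨Finset.mem_univ _, h2⟩⟩) (not_lt.2 hc)
  | succ n ih =>
    intro Y hY hc h
    obtain ⟨i, j, h1, h2⟩ := key Y h
    by_cases h3 : ad (diagonal d) (ad (diagonal d) Y - (d i - d j) • Y) = 0
    · refine ⟨_, hU Y hY, h, i, j, h1, ?_⟩
      rwa [map_sub, map_smul, sub_eq_zero] at h3
    · refine ih _ (sub_mem (hU Y hY) (U.smul_mem _ hY)) (Nat.le_of_lt_succ (lt_of_lt_of_le (Finset.card_lt_card ?_) hc)) h3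
      have h4 : ∀ a b, (ad (diagonal d) Y - (d i - d j) • Y) a b = (d a - d b - (d i - d j)) * Y a b := fun a b => by
        rw [Matrix.sub_apply, ad_diag, Matrix.smul_apply, smul_eq_mul, ← sub_mul]
      refine ⟨fun q hq => Finset.mem_filter.2 ⟨Finset.mem_univ _, ?_⟩, fun hs => ?_⟩
      · have h5 := (Finset.mem_filter.1 hq).2
        rw [h4] at h5
        exact right_ne_zero_of_mul h5
      · have h5 := (Finset.mem_filter.1 (hs (Finset.mem_filter.2 ⟨Finset.mem_univ (i, j), h2⟩))).2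
        rw [h4, sub_self, zero_mul] at h5
        exact h5 rfl

/-- similar to a diagonal matrix -/
def Dg (X : Matrix I I K) (d : I → K) : Prop := ∃ P Q : Matrix I I K, P * Q = 1 ∧ X = P * diagonal d * Q

theorem dg_diag (d : I → K) : Dg (diagonal d) d := ⟨1, 1, one_mul _, by rw [one_mul, mul_one]⟩

theorem ad_conj {P Q : Matrix I I K} (h : P * Q = 1) (D Y : Matrix I I K) :
    Q * ad (P * D * Q) Y * P = ad D (Q * Y * P) := by
  have h' : Q * P = 1 := mul_eq_one_comm.1 h
  simp only [ad_apply, mul_sub, sub_mul, mul_assoc, h', mul_one]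
  rw [← mul_assoc Q P, h', one_mul]

theorem conj_back {P Q : Matrix I I K} (h : P * Q = 1) (Y : Matrix I I K) : P * (Q * Y * P) * Q = Y := by
  rw [← mul_assoc, ← mul_assoc, h, one_mul, mul_assoc, h, mul_one]

namespace Dg

variable {X : Matrix I I K} {d : I → K}

theorem exists_eig (h : Dg X d) (U : Submodule K (Matrix I I K)) (hU : ∀ Y ∈ U, ad X Y ∈ U) {Y : Matrix I I K}
    (hY : Y ∈ U) (h0 : ad X Y ≠ 0) : ∃ W ∈ U, W ≠ 0 ∧ ∃ i j, d i - d j ≠ 0 ∧ ad X W = (d i - d j) • W := by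
  obtain ⟨P, Q, h1, rfl⟩ := h
  let f : Matrix I I K →ₗ[K] Matrix I I K := LinearMap.mulRight K P ∘ₗ LinearMap.mulLeft K Q
  have hf : ∀ Y, f Y = Q * Y * P := fun _ => rfl
  obtain ⟨_, ⟨W, hW, rfl⟩, h2, i, j, h3, h4⟩ := diag_eig d (U.map f) (by
    rintro _ ⟨Z, hZ, rfl⟩
    exact ⟨_, hU Z hZ, ad_conj h1 _ _⟩) _ (f Y) ⟨Y, hY, rfl⟩ le_rfl fun e => h0 (by
      rw [← conj_back h1 (ad _ Y), ad_conj h1, ← hf, e, mul_zero, zero_mul])
  refine ⟨W, hW, fun e => h2 (by rw [e, map_zero]), i, j, h3, ?_⟩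
  rw [← conj_back h1 (ad _ W), ad_conj h1, ← hf, h4, mul_smul_comm, smul_mul_assoc, hf, conj_back h1]

theorem eig_zero (h : Dg X d) {Y : Matrix I I K} {c : K} (hc : c ≠ 0) (e : ad Y X = c • X) : X = 0 := by
  obtain ⟨P, Q, h1, rfl⟩ := h
  have h' : Q * P = 1 := mul_eq_one_comm.1 h1
  have h2 : ad (diagonal d) (Q * Y * P) = -c • diagonal d := by
    rw [← ad_conj h1, ad_apply, ← neg_sub, ← ad_apply, e, neg_smul, mul_neg, neg_mul, mul_smul_comm, smul_mul_assoc,
      conj_back h']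
  have h3 : d = 0 := funext fun i => by
    have h3 := congrFun (congrFun h2 i) i
    rw [ad_diag, sub_self, zero_mul, Matrix.smul_apply, diagonal_apply_eq, smul_eq_mul] at h3
    exact (mul_eq_zero.1 h3.symm).resolve_left (neg_ne_zero.2 hc)
  rw [h3, show diagonal (0 : I → K) = 0 from diagonal_zero, mul_zero, zero_mul]

theorem eig_mem (h : Dg X d) {W : Matrix I I K} {c : K} (h0 : W ≠ 0) (e : ad X W = c • W) : ∃ i j, c = d i - d j := by
  obtain ⟨P, Q, h1, rfl⟩ := h
  by_contra hc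
  refine h0 ?_
  have h2 : Q * W * P = 0 := Matrix.ext fun i j => by
    have h2 := ad_diag d (Q * W * P) i j
    rw [← ad_conj h1, e, mul_smul_comm, smul_mul_assoc, Matrix.smul_apply, smul_eq_mul, ← sub_eq_zero, ← sub_mul] at h2
    exact (mul_eq_zero.1 h2).resolve_left fun h3 => hc ⟨i, j, sub_eq_zero.1 h3⟩
  rw [← conj_back h1 W, h2, mul_zero, zero_mul]

/-- a generic combination of two commuting diagonalisable matrices -/
theorem exists_generic [Infinite K] (h : Dg X d) {S : Matrix I I K} {s : I → K} (hS : Dg S s) (hc : S * X = X * S) :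
    ∃ t : K, ∀ Y, ad (S + t • X) Y = 0 → ad S Y = 0 ∧ ad X Y = 0 := by
  classical
  obtain ⟨t, ht⟩ := Infinite.exists_notMem_finset
    (Finset.univ.image fun q : (I × I) × I × I => -(s q.1.1 - s q.1.2) / (d q.2.1 - d q.2.2))
  have h1 : ∀ Y, ad (S + t • X) Y = ad S Y + t • ad X Y := fun Y => by
    simp only [ad_apply, add_mul, mul_add, smul_mul_assoc, mul_smul_comm, smul_sub]
    abel
  have h2 : ∀ Y, ad (S + t • X) Y = 0 → ad X Y = 0 := fun Y hY => by
    by_contra h0
    obtain ⟨W, hW, w0, i, j, h3, h4⟩ := h.exists_eig (LinearMap.ker (ad (S + t • X))) (fun Z hZ => by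
      have h5 : Commute (S + t • X) X := Commute.add_left hc ((Commute.refl X).smul_left t)
      have h6 : (S + t • X) * Z = Z * (S + t • X) := sub_eq_zero.1 hZ
      have h7 : Commute (S + t • X) (X * Z - Z * X) := (h5.mul_right h6).sub_right (Commute.mul_right h6 h5)
      exact sub_eq_zero.2 h7) hY h0
    have h5 : ad S W = (-(t * (d i - d j))) • W := by
      have h5 : ad (S + t • X) W = 0 := hW
      rw [h1, h4, smul_smul] at h5
      rw [neg_smul, eq_neg_iff_add_eq_zero, h5]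
    obtain ⟨a, b, h6⟩ := hS.eig_mem w0 h5
    exact ht (Finset.mem_image.2 ⟨((a, b), i, j), Finset.mem_univ _, by
      show -(s a - s b) / (d i - d j) = t
      rw [← h6, neg_neg, mul_div_cancel_right₀ _ h3]⟩)
  refine ⟨t, fun Y hY => ⟨?_, h2 Y hY⟩⟩
  have h3 := h2 Y hY
  rwa [h1, h3, smul_zero, add_zero] at hY

end Dg

/-- a Jordan decomposition of a matrix -/
structure Jm (S N : Matrix I I K) : Prop where
  dg : ∃ d, Dg S d
  nil : IsNilpotent N
  cm : S * N = N * S

/-- intertwiners respect Jordan decompositions -/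
theorem Jm.inter {S N S' N' Y : Matrix I I K} (h : Jm S N) (h' : Jm S' N') (e : Y * (S + N) = (S' + N') * Y) :
    Y * S = S' * Y := by
  obtain ⟨⟨d, P, Q, h1, rfl⟩, n1, c1⟩ := h
  obtain ⟨⟨d', P', Q', h2, rfl⟩, n2, c2⟩ := h'
  have nil : ∀ {P Q N : Matrix I I K}, P * Q = 1 → IsNilpotent N → IsNilpotent (Q * N * P) := fun {P Q N} h hN => by
    obtain ⟨m, hm⟩ := hN
    have h3 : ∀ k : ℕ, (Q * N * P) ^ (k + 1) = Q * N ^ (k + 1) * P := fun k => by
      induction k with
      | zero => rw [zero_add, pow_one, pow_one]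
      | succ k ih =>
        rw [pow_succ, ih, pow_succ N (k + 1)]
        simp only [mul_assoc]
        rw [← mul_assoc P Q, h, one_mul]
    exact ⟨m + 1, by rw [h3, pow_succ, hm, zero_mul, mul_zero, zero_mul]⟩
  have cm : ∀ {P Q N D : Matrix I I K}, P * Q = 1 → P * D * Q * N = N * (P * D * Q) → Commute D (Q * N * P) :=
    fun {P Q N D} h hc => by
      have h3 := ad_conj h D N
      rw [ad_apply, hc, sub_self, mul_zero, zero_mul, ad_apply] at h3
      exact sub_eq_zero.1 h3.symm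
  have q1 : Q * P = 1 := mul_eq_one_comm.1 h1
  have q2 : Q' * P' = 1 := mul_eq_one_comm.1 h2
  have h3 := diag_inter (Y := Q' * Y * P) (nil h1 n1) (nil h2 n2) (cm h1 c1) (cm h2 c2) (by
    have h3 := congrArg (fun Z => Q' * Z * P) e
    simp only [mul_add, add_mul, mul_assoc, q1, mul_one] at h3 ⊢
    rw [← mul_assoc Q' P', q2, one_mul] at h3
    rw [← mul_assoc P Q, h1, one_mul, ← mul_assoc P' Q', h2, one_mul, h3])
  have h4 := congrArg (fun Z => P' * Z * Q) h3
  simp only [mul_assoc, h1, mul_one] at h4 ⊢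
  rwa [← mul_assoc P' Q', h2, one_mul] at h4

theorem jm_scalar (c : K) : Jm (diagonal fun _ : I => c) 0 :=
  ⟨⟨_, dg_diag _⟩, IsNilpotent.zero, by rw [mul_zero, zero_mul]⟩

/-- eigenvectors -/
theorem Jm.eig {S N : Matrix I I K} (h : Jm S N) {v : I → K} {c : K} (e : (S + N) *ᵥ v = c • v) : S *ᵥ v = c • v := by
  have key : ∀ (A : Matrix I I K) (i j : I), (A * replicateCol I v) i j = (A *ᵥ v) i := fun _ _ _ => rfl
  have h1 := (jm_scalar c).inter h (Y := replicateCol I v) (Matrix.ext fun i j => by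
    rw [key, e, add_zero, mul_diagonal, replicateCol_apply, Pi.smul_apply, smul_eq_mul, mul_comm])
  funext i
  rw [← key S i i, ← h1, mul_diagonal, replicateCol_apply, Pi.smul_apply, smul_eq_mul, mul_comm]

end Cfsg.Agent.E7P.La
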