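import Cfsg.Agent.E7P.Iface
import Cfsg.Agent.E7P.Lie.AMat
import Cfsg.Agent.E8A.Fix.BorGen

/-!
# S5932, LIE-a (helper76): the Jordan decomposition in the Lie algebra

`Eqv K` : `del` is equivariant (`eqv` : true if `2 ≠ 0`).  `Jd x s z` : Jordan decomposition; `jord` : existence;
`Jd.comm, Jd.inter, Jd.ker, Jd.eig, Jd.fix, Jd.nilp`; `nil` : nilpotent elements are conjugate into `Gt K ac rho1 0`.
-/

set_option autoImplicit false
set_option maxRecDepth 100000

namespace Cfsg.Agent.E7P.La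

open Cfsg Cfsg.Lie Matrix Module
open Cfsg.Agent.H943.E7V.Block (D1 rho)
open Cfsg.Agent.H944.E7Two (e7T)
open Cfsg.Agent.R2.T1 Cfsg.Agent.E7P.Kf
open Cfsg.Agent.R2.PX (del)

universe u

variable {K : Type u} [Field K]

variable (K) in
/-- `del` is equivariant -/
def Eqv : Prop := ∀ (g : Gh K) (z : chevE7.Idx → K), rho K g * del K z = del K (adM K g *ᵥ z) * rho K g

theorem eqv (h2 : (2 : K) ≠ 0) : Eqv K := R2.PX.del_equi h2

theorem rho_mul_inv (g : Gh K) : rho K g * rho K g⁻¹ = 1 := by rw [← map_mul, mul_inv_cancel, map_one]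

theorem Eqv.conj (hq : Eqv K) (g : Gh K) (z : chevE7.Idx → K) :
    del K (adM K g *ᵥ z) = rho K g * del K z * rho K g⁻¹ := by
  rw [hq, mul_assoc, rho_mul_inv, mul_one]

/-- the value of a weight on a toral vector -/
def wval (l : Fin 7 → K) (a : D1) : K := ∑ i : Fin 7, l i * (wc a i : K)

theorem Hi_def (i : ℕ) : R2.PX.Hi K i = diagonal fun a => ((chevE8.cartan i (nn a) : ℤ) : K) := rfl

theorem rval_def (r : ℕ) (x : chevE7.Idx → K) :
    rval r x = ∑ i : Fin chevE7.rank, (chevE7.cartan i r : K) * x (Sum.inl i) := rfl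

theorem rv_def (r : ℕ) : rv r = cv (rc r) := rfl

theorem del_tv' (l : Fin 7 → K) : del K (tv l) = ∑ i : Fin chevE7.rank, l i • R2.PX.Hi K i := by
  rw [R2.PX.del_apply]
  simp only [tv_inl, tv_inr, zero_smul, Finset.sum_const_zero, add_zero]

theorem del_tv (l : Fin 7 → K) : del K (tv l) = diagonal (wval l) := by
  rw [del_tv']
  ext a b
  rw [Matrix.sum_apply]
  by_cases h : a = b
  · subst h
    rw [diagonal_apply_eq]
    exact Finset.sum_congr rfl fun i _ => by rw [Matrix.smul_apply, Hi_def, diagonal_apply_eq]; rfl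
  · rw [diagonal_apply_ne _ h]
    exact Finset.sum_eq_zero fun i _ => by rw [Matrix.smul_apply, Hi_def, diagonal_apply_ne _ h, smul_zero]

theorem tv_NM (l : Fin 7 → K) {r : ℕ} (hr : r < 126) :
    del K (tv l) * NM K r - NM K r * del K (tv l) = rval r (tv l) • NM K r := by
  rw [del_tv', Finset.sum_mul, Finset.mul_sum, ← Finset.sum_sub_distrib, rval_def, Finset.sum_smul]
  refine Finset.sum_congr rfl fun i _ => ?_
  rw [smul_mul_assoc, mul_smul_comm, ← smul_sub, R2.PX.Hi_comm hr i.2, smul_smul, mul_comm]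
  rfl

theorem dg_tv (hq : Eqv K) (g : Gh K) (l : Fin 7 → K) : Dg (del K (adM K g *ᵥ tv l)) (wval l) :=
  ⟨_, _, rho_mul_inv g, by rw [hq.conj, del_tv]⟩

/-- an element which acts diagonally is toral -/
theorem eq_tv_of_diag {x : chevE7.Idx → K} (h : ∀ a b, a ≠ b → del K x a b = 0) : x = tv fun i => x (Sum.inl i) := by
  funext i
  rcases i with i | s
  · rfl
  · obtain ⟨a, b, c, h1, h2⟩ := R2.PX.Tr.exists_entry (show (s : ℕ) < 126 from s.2)
    have h3 := Mu.del_entry x (show (s : ℕ) < 126 from s.2) h1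
    rw [h a b fun e => rv_ne (show (s : ℕ) < 126 from s.2) (by
      have h4 := wc_add (show (s : ℕ) < 126 from s.2) h1
      rw [e, left_eq_add] at h4
      rw [rv_def, h4, cv_zero])] at h3
    exact (mul_eq_zero.1 h3.symm).resolve_right (R2.T1.cast_ne h2)

/-! ### the Borel subalgebra -/

theorem rho1_rv {r : ℕ} (hr : r < 126) : (63 ≤ r → 0 < bf rho1 (rv r)) ∧ (r < 63 → bf rho1 (rv r) < 0) := by
  refine ⟨fun h => rho1_pos hr ((chk_pos r hr).1.1 h), fun h => ?_⟩
  have h1 := rho1_pos (r := 125 - r) (by omega) ((chk_pos _ (by omega)).1.1 (by omega))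
  rwa [rv_neg hr, map_neg, neg_pos] at h1

theorem mem_B {x : chevE7.Idx → K} :
    x ∈ Ge K ac rho1 0 ↔ ∀ r : Fin chevE7.nroots, r.val < 63 → x (Sum.inr r) = 0 := by
  refine ⟨fun h r hr => of_not_not fun e => absurd (h _ e) (not_le.2 ((rho1_rv r.2).2 hr)), fun h i hi => ?_⟩
  rcases i with i | r
  · rw [ac_inl, cv_zero, map_zero]
  · exact ((rho1_rv r.2).1 (not_lt.1 fun e => hi (h r e))).le

theorem mem_N {x : chevE7.Idx → K} : x ∈ Gt K ac rho1 0 ↔
    (∀ i, x (Sum.inl i) = 0) ∧ ∀ r : Fin chevE7.nroots, r.val < 63 → x (Sum.inr r) = 0 := by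
  refine ⟨fun h => ⟨fun i => of_not_not fun e => ?_,
    fun r hr => of_not_not fun e => absurd (h _ e) (not_lt.2 ((rho1_rv r.2).2 hr).le)⟩, fun h i hi => ?_⟩
  · have h1 := h _ e
    rw [ac_inl, cv_zero, map_zero] at h1
    exact lt_irrefl _ h1
  · rcases i with i | r
    · exact absurd (h.1 i) hi
    · exact (rho1_rv r.2).1 (not_lt.1 fun e => hi (h.2 r e))

theorem car_chk : ((List.range 126).all fun r => (List.range 7).any fun i =>
    ((chevE7.cartanSR.getD i #[]).getD r 0).natAbs == 1) = true := by decide +kernel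

/-- every element is conjugate into the Borel subalgebra -/
theorem borel [IsAlgClosed K] (x : chevE7.Idx → K) : ∃ g, adM K g *ᵥ x ∈ Ge K ac rho1 0 := by
  obtain ⟨g, hg, h⟩ := E8A.Bor.exists_inB e7T.inList (K := K) (fun r => by
    obtain ⟨i, hi, e⟩ := List.any_eq_true.1 (List.all_eq_true.1 car_chk r.val (List.mem_range.2 r.2))
    refine ⟨⟨i, List.mem_range.1 hi⟩, ?_⟩
    rcases Int.natAbs_eq_iff.1 (beq_iff_eq.1 e) with e | e <;> rw [e] <;> simp) x
  obtain ⟨y, hy⟩ := ad_surjective (K := K) ⟨g, hg⟩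
  refine ⟨y, mem_B.2 fun r hr => ?_⟩
  rw [adM_apply, hy]
  exact h r (show 2 * r.val < 126 by omega)

theorem chk_up : ((List.range 126).all fun r => (List.range 126).all fun s => (F7 r s).all fun x =>
    Nat.blt s 63 || Nat.blt r x.1) = true := by decide +kernel

theorem xs_N {n : chevE7.Idx → K} (hn : n ∈ Gt K ac rho1 0) {r : ℕ} (hr : r < 126) (h63 : 63 ≤ r) (t : K)
    {i : chevE7.Idx} (hi : ∀ u : Fin chevE7.nroots, i = Sum.inr u → u.val ≤ r) : (adM K (xs K r t) *ᵥ n) i = n i := by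
  obtain ⟨n1, n2⟩ := mem_N.1 hn
  have h1 : (EM K r *ᵥ n) i = 0 := by
    by_contra h
    obtain ⟨j, h2, h3⟩ := exists_col h
    rcases j with j | s
    · exact h3 (n1 j)
    have h4 : 63 ≤ s.val := not_lt.1 fun e => h3 (n2 s e)
    rcases i with i | u
    · exact h2 ((EM_lr r i s).trans (if_neg (by omega)))
    · have h5 : cf r s u ≠ 0 := fun e => h2 (by rw [EM_rr, e, Int.cast_zero])
      have h6 := List.all_eq_true.1 (List.all_eq_true.1 chk_up r (List.mem_range.2 hr)) s (List.mem_range.2 s.2)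
      rw [cf_ne hr h5, List.all_cons, List.all_nil, Bool.and_true, Bool.or_eq_true, Nat.blt_eq, Nat.blt_eq] at h6
      have h7 := hi u rfl
      omega
  have h2 : (QM K r *ᵥ n) i = 0 := by
    by_contra h
    obtain ⟨j, h2, h3⟩ := exists_col h
    rcases j with j | s
    · exact h3 (n1 j)
    have h4 : 63 ≤ s.val := not_lt.1 fun e => h3 (n2 s e)
    rcases i with i | u
    · exact h2 (QM_lr r i s)
    · exact h2 ((QM_rr r u s).trans (if_neg (by omega)))
  rw [adM_xs hr, add_mulVec, add_mulVec, one_mulVec, smul_mulVec, smul_mulVec, Pi.add_apply, Pi.add_apply,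
    Pi.smul_apply, Pi.smul_apply, h1, h2, smul_zero, smul_zero, add_zero, add_zero]

/-- the toral part -/
def tp (x : chevE7.Idx → K) : chevE7.Idx → K := tv fun i => x (Sum.inl i)

theorem rval_tp (r : ℕ) (x : chevE7.Idx → K) : rval r (tp x) = rval r x := rfl

theorem sub_tp_mem {x : chevE7.Idx → K} (hx : x ∈ Ge K ac rho1 0) : x - tp x ∈ Gt K ac rho1 0 :=
  mem_N.2 ⟨fun _ => sub_self _, fun r hr => by rw [Pi.sub_apply, mem_B.1 hx r hr, tp, tv_inr, sub_zero]⟩

theorem xs_B {x : chevE7.Idx → K} (hx : x ∈ Ge K ac rho1 0) {r : ℕ} (hr : r < 126) (h63 : 63 ≤ r) (t : K)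
    {i : chevE7.Idx} (hi : ∀ u : Fin chevE7.nroots, i = Sum.inr u → u.val ≤ r) :
    (adM K (xs K r t) *ᵥ x) i = x i - t * rval r x * (Pi.single (Sum.inr ⟨r, hr⟩) 1 : chevE7.Idx → K) i := by
  have h1 := xs_N (sub_tp_mem hx) hr h63 t hi
  rw [mulVec_sub, tp, adM_xs_tv hr, Pi.sub_apply, Pi.sub_apply, Pi.sub_apply, Pi.smul_apply, smul_eq_mul] at h1
  have h2 : rval r (tv fun i => x (Sum.inl i)) = rval r x := rfl
  rw [h2] at h1
  linear_combination h1

theorem jord_aux {x : chevE7.Idx → K} (hx : x ∈ Ge K ac rho1 0) (k : ℕ) : ∃ g, adM K g *ᵥ x ∈ Ge K ac rho1 0 ∧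
    ∀ r : Fin chevE7.nroots, r.val < k → (adM K g *ᵥ x) (Sum.inr r) ≠ 0 → rval r (adM K g *ᵥ x) = 0 := by
  induction k with
  | zero => exact ⟨1, by rwa [map_one, one_mulVec], fun r hr => absurd hr (Nat.not_lt_zero _)⟩
  | succ k ih =>
    obtain ⟨g, hB, hg⟩ := ih
    by_cases hc : ∃ r : Fin chevE7.nroots, r.val = k ∧ (adM K g *ᵥ x) (Sum.inr r) ≠ 0 ∧ rval r (adM K g *ᵥ x) ≠ 0
    · obtain ⟨r, rfl, h1, h2⟩ := hc
      have hr : 63 ≤ r.val := not_lt.1 fun e => h1 (mem_B.1 hB r e)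
      obtain ⟨t, ht⟩ : ∃ t : K, t = (adM K g *ᵥ x) (Sum.inr r) / rval r (adM K g *ᵥ x) := ⟨_, rfl⟩
      refine ⟨xs K r t * g, ?_, fun s hs h3 => ?_⟩
      · rw [mulVec_mul]
        exact wrep_L.Ge_stab (xs_mem_Pl r.2 ((rho1_rv r.2).1 hr).le t) hB
      · rw [mulVec_mul] at h3 ⊢
        rw [xs_B hB r.2 hr t (fun u hu => by cases hu; omega)] at h3
        by_cases e : s = r
        · exact absurd (by rw [e, Pi.single_eq_same, mul_one, ht, div_mul_cancel₀ _ h2, sub_self]) h3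
        · rw [Pi.single_eq_of_ne fun e' => e (Sum.inr.inj e'), mul_zero, sub_zero] at h3
          rw [← hg s (by have : s.val ≠ r.val := fun e' => e (Fin.ext e'); omega) h3]
          refine Finset.sum_congr rfl fun i _ => ?_
          rw [xs_B hB r.2 hr t (fun u hu => by cases hu), Pi.single_eq_of_ne Sum.inl_ne_inr, mul_zero, sub_zero]
    · refine ⟨g, hB, fun r hr h1 => ?_⟩
      by_cases e : r.val = k
      · exact of_not_not fun h2 => hc ⟨r, e, h1, h2⟩
      · exact hg r (by omega) h1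

theorem del_root {z : chevE7.Idx → K} (h : ∀ i, z (Sum.inl i) = 0) :
    del K z = ∑ s : Fin chevE7.nroots, z (Sum.inr s) • NM K s := by
  rw [R2.PX.del_apply]
  simp only [h, zero_smul, Finset.sum_const_zero, zero_add]

/-- the positive part of a grading acts by strictly triangular matrices -/
theorem stri_del {β : E} {z : chevE7.Idx → K} (hz : z ∈ Gt K ac β 0) : STri β (del K z) := by
  intro i j h
  have h0 : ∀ i, z (Sum.inl i) = 0 := fun i => of_not_not fun e => by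
    have h1 := hz _ e
    rw [ac_inl, cv_zero, map_zero] at h1
    exact lt_irrefl _ h1
  rw [del_root h0, Matrix.sum_apply] at h
  obtain ⟨s, -, hs⟩ := Finset.exists_ne_zero_of_sum_ne_zero h
  rw [Matrix.smul_apply, smul_eq_mul] at hs
  have h1 : z (Sum.inr s) ≠ 0 := left_ne_zero_of_mul hs
  have h2 : NM K s i j ≠ 0 := right_ne_zero_of_mul hs
  have h3 : (0 : ℝ) < bf β (rv s) := hz (Sum.inr s) h1
  have h4 : wv i = wv j + rv s := NM_ne (show (s : ℕ) < 126 from s.2) h2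
  rw [h4, map_add]
  exact lt_add_of_pos_right _ h3

theorem nilp_del {β : E} {z : chevE7.Idx → K} (hz : z ∈ Gt K ac β 0) : IsNilpotent (del K z) :=
  ⟨_, pow_eq_zero_of_tri (fun i => bf β (wv i)) (stri_del hz)⟩

theorem Eqv.nilp (hq : Eqv K) (g : Gh K) {z : chevE7.Idx → K} (hz : IsNilpotent (del K z)) :
    IsNilpotent (del K (adM K g *ᵥ z)) := by
  obtain ⟨m, hm⟩ := hz
  have h1 : SemiconjBy (rho K g) (del K z ^ m) (del K (adM K g *ᵥ z) ^ m) := SemiconjBy.pow_right (hq g z) m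
  refine ⟨m, ?_⟩
  rw [← mul_one (_ ^ m), ← rho_mul_inv g, ← mul_assoc, ← h1.eq, hm, mul_zero, zero_mul]

theorem Eqv.cm (hq : Eqv K) (g : Gh K) {x y : chevE7.Idx → K} (h : Cm x y) : Cm (adM K g *ᵥ x) (adM K g *ᵥ y) := by
  have h1 : rho K g⁻¹ * rho K g = 1 := by rw [← map_mul, inv_mul_cancel, map_one]
  have h2 : ∀ A B : Matrix D1 D1 K, rho K g * A * rho K g⁻¹ * (rho K g * B * rho K g⁻¹) =
      rho K g * (A * B) * rho K g⁻¹ := fun A B => by
    simp only [mul_assoc]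
    rw [← mul_assoc (rho K g⁻¹), h1, one_mul]
  show del K _ * del K _ = del K _ * del K _
  rw [hq.conj, hq.conj, h2, h2, show del K x * del K y = del K y * del K x from h]

/-! ### Jordan decompositions -/

/-- **a Jordan decomposition** `x = s + z` -/
structure Jd (x s z : chevE7.Idx → K) : Prop where
  sum : x = s + z
  cm : Cm s z
  std : ∃ (g : Gh K) (l : Fin 7 → K), ∃ z0 ∈ Gt K ac rho1 0, s = adM K g *ᵥ tv l ∧ z = adM K g *ᵥ z0

/-- **JORD** -/
theorem jord [IsAlgClosed K] (hq : Eqv K) (x : chevE7.Idx → K) : ∃ s z, Jd x s z := by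
  obtain ⟨g0, h0⟩ := borel x
  obtain ⟨g1, h1, h2⟩ := jord_aux h0 126
  rw [← mulVec_mul] at h1 h2
  obtain ⟨y, hy⟩ : ∃ y, y = adM K (g1 * g0) *ᵥ x := ⟨_, rfl⟩
  rw [← hy] at h1 h2
  refine ⟨_, _, ?_, hq.cm (g1 * g0)⁻¹ (x := tp y) (y := y - tp y) ?_, (g1 * g0)⁻¹, _, _, sub_tp_mem h1, rfl, rfl⟩
  · rw [← mulVec_add, add_sub_cancel, hy, mulVec_inv]
  · show del K _ * del K _ = del K _ * del K _
    rw [del_root (z := y - tp y) fun _ => sub_self _, Finset.mul_sum, Finset.sum_mul, ← sub_eq_zero,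
      ← Finset.sum_sub_distrib]
    refine Finset.sum_eq_zero fun s _ => ?_
    rw [mul_smul_comm, smul_mul_assoc, ← smul_sub, tp, tv_NM _ s.2, Pi.sub_apply, tv_inr, sub_zero]
    by_cases e : y (Sum.inr s) = 0
    · rw [e, zero_smul]
    · rw [show rval s (tv fun i => y (Sum.inl i)) = 0 from h2 s s.2 e, zero_smul, smul_zero]

namespace Jd

variable {x s z x' s' z' : chevE7.Idx → K}

theorem map (h : Jd x s z) (hq : Eqv K) (g : Gh K) : Jd (adM K g *ᵥ x) (adM K g *ᵥ s) (adM K g *ᵥ z) := by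
  obtain ⟨g0, l, z0, h0, h1, h2⟩ := h.std
  exact ⟨by rw [h.sum, mulVec_add], hq.cm g h.cm, g * g0, l, z0, h0, by rw [h1, mulVec_mul], by rw [h2, mulVec_mul]⟩

theorem nilp (h : Jd x s z) (hq : Eqv K) : IsNilpotent (del K z) := by
  obtain ⟨g, l, z0, h0, -, rfl⟩ := h.std
  exact hq.nilp g (nilp_del h0)

theorem jm (h : Jd x s z) (hq : Eqv K) : Jm (del K s) (del K z) := by
  obtain ⟨g, l, z0, -, h1, -⟩ := h.std
  exact ⟨⟨wval l, by rw [h1]; exact dg_tv hq g l⟩, h.nilp hq, h.cm⟩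

theorem del_eq (h : Jd x s z) : del K x = del K s + del K z := by rw [h.sum, map_add]

/-- intertwiners -/
theorem inter (h : Jd x s z) (h' : Jd x' s' z') (hq : Eqv K) {Y : Matrix D1 D1 K} (e : Y * del K x = del K x' * Y) :
    Y * del K s = del K s' * Y ∧ Y * del K z = del K z' * Y := by
  rw [h.del_eq, h'.del_eq] at e
  have h1 := (h.jm hq).inter (h'.jm hq) e
  rw [mul_add, add_mul, h1] at e
  exact ⟨h1, add_left_cancel e⟩

/-- what commutes with `x` commutes with the parts -/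
theorem comm (h : Jd x s z) (hq : Eqv K) {Y : Matrix D1 D1 K} (e : Y * del K x = del K x * Y) :
    Y * del K s = del K s * Y ∧ Y * del K z = del K z * Y := h.inter h hq e

theorem unique (h : Jd x s z) (h' : Jd x s' z') (hq : Eqv K) : s = s' ∧ z = z' := by
  have h1 := h.inter h' hq (Y := 1) (by rw [one_mul, mul_one])
  simp only [one_mul, mul_one] at h1
  exact ⟨Mu.del_injective h1.1, Mu.del_injective h1.2⟩

theorem cm_of (h : Jd x s z) (hq : Eqv K) {y : chevE7.Idx → K} (e : Cm y x) : Cm y s ∧ Cm y z := h.comm hq e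

theorem fix (h : Jd x s z) (hq : Eqv K) {g : Gh K} (e : adM K g *ᵥ x = x) : adM K g *ᵥ s = s ∧ adM K g *ᵥ z = z := by
  have h1 := h.map hq g
  rw [e] at h1
  exact h1.unique h hq

theorem eig (h : Jd x s z) (hq : Eqv K) {v : D1 → K} {c : K} (e : del K x *ᵥ v = c • v) :
    del K s *ᵥ v = c • v ∧ del K z *ᵥ v = 0 := by
  rw [h.del_eq] at e
  have h1 := (h.jm hq).eig e
  rw [add_mulVec, h1] at e
  exact ⟨h1, add_eq_left.1 e⟩

theorem ker (h : Jd x s z) (hq : Eqv K) {v : D1 → K} (e : del K x *ᵥ v = 0) : del K s *ᵥ v = 0 ∧ del K z *ᵥ v = 0 := by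
  have h1 := h.eig hq (c := 0) (by rw [e, zero_smul])
  rwa [zero_smul] at h1

theorem of_nilp (h : Jd x s z) (hq : Eqv K) (hx : IsNilpotent (del K x)) : s = 0 := by
  have h1 := (h.jm hq).inter (S' := diagonal fun _ => 0) (N' := del K x) (Y := 1)
    ⟨⟨_, dg_diag _⟩, hx, by rw [diagonal_zero, zero_mul, mul_zero]⟩ (by
      rw [diagonal_zero, zero_add, one_mul, mul_one, h.del_eq])
  rw [diagonal_zero, zero_mul, one_mul] at h1
  exact Mu.del_inj h1

end Jd

/-- **NIL** -/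
theorem nil [IsAlgClosed K] (hq : Eqv K) {z : chevE7.Idx → K} (hz : IsNilpotent (del K z)) :
    ∃ g : Gh K, ∃ z0 ∈ Gt K ac rho1 0, z = adM K g *ᵥ z0 := by
  obtain ⟨s, n, h⟩ := jord hq z
  obtain ⟨g, l, z0, h0, -, h2⟩ := h.std
  exact ⟨g, z0, h0, by rw [h.sum, h.of_nilp hq hz, zero_add, h2]⟩

end Cfsg.Agent.E7P.La
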