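import Cfsg.Agent.E7P.Lie.AJor

/-!
# S5932, LIE-a (helper76): toral subalgebras

`toral_of_cm` : a commuting space of semisimple elements is conjugate into the standard torus;
`toral_of_ss` : the same for a subalgebra of semisimple elements; `toral, toral'` : **TORAL**.
-/

set_option autoImplicit false
set_option maxRecDepth 100000

namespace Cfsg.Agent.E7P.La

open Cfsg Cfsg.Lie Matrix Module
open Cfsg.Agent.H943.E7V.Block (D1 rho)
open Cfsg.Agent.R2.T1 Cfsg.Agent.E7P.Kf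
open Cfsg.Agent.R2.PX (del)

universe u

variable {K : Type u} [Field K]

theorem cm_tv (l l' : Fin 7 → K) : Cm (tv l) (tv l') := by
  show del K _ * del K _ = del K _ * del K _
  rw [del_tv, del_tv, diagonal_mul_diagonal, diagonal_mul_diagonal]
  exact congrArg diagonal (funext fun a => mul_comm _ _)

/-- a commuting space of semisimple elements has a generic element -/
theorem exists_generic [Infinite K] (hq : Eqv K) (C : Submodule K (chevE7.Idx → K))
    (hs : ∀ x ∈ C, ∃ g l, x = adM K g *ᵥ tv l) (hc : ∀ x ∈ C, ∀ y ∈ C, Cm x y) :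
    ∃ s ∈ C, ∀ x ∈ C, ∀ Y, ad (del K s) Y = 0 → ad (del K x) Y = 0 := by
  obtain ⟨s, h1, h2⟩ := (InvImage.wf (fun x => finrank K (LinearMap.ker (ad (del K x)))) wellFounded_lt).has_min
    (C : Set (chevE7.Idx → K)) ⟨0, zero_mem C⟩
  refine ⟨s, h1, fun x hx Y hY => ?_⟩
  obtain ⟨g, l, e⟩ := hs s h1
  obtain ⟨g', l', e'⟩ := hs x hx
  obtain ⟨t, ht⟩ := Dg.exists_generic (X := del K x) (S := del K s) (by rw [e']; exact dg_tv hq g' l')
    (by rw [e]; exact dg_tv hq g l) (hc s h1 x hx)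
  have h3 : finrank K (LinearMap.ker (ad (del K s))) ≤ finrank K (LinearMap.ker (ad (del K s + t • del K x))) := by
    rw [← map_smul, ← map_add]
    exact not_lt.1 (h2 _ (add_mem h1 (C.smul_mem t hx)))
  have h4 := Submodule.eq_of_le_of_finrank_le (show LinearMap.ker (ad (del K s + t • del K x)) ≤
    LinearMap.ker (ad (del K s)) from fun Z hZ => (ht Z hZ).1) h3
  exact (ht Y (LinearMap.mem_ker.1 (h4.ge (LinearMap.mem_ker.2 hY)))).2

theorem toral_of_cm [Infinite K] (hq : Eqv K) (C : Submodule K (chevE7.Idx → K))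
    (hs : ∀ x ∈ C, ∃ g l, x = adM K g *ᵥ tv l) (hc : ∀ x ∈ C, ∀ y ∈ C, Cm x y) :
    ∃ g : Gh K, ∀ x ∈ C, ∃ l, x = adM K g *ᵥ tv l := by
  obtain ⟨s, h1, h2⟩ := exists_generic hq C hs hc
  obtain ⟨g, l, e⟩ := hs s h1
  refine ⟨g, fun x hx => ?_⟩
  obtain ⟨y, rfl⟩ : ∃ y, x = adM K g *ᵥ y := ⟨adM K g⁻¹ *ᵥ x, by rw [← mulVec_mul, mul_inv_cancel, map_one, one_mulVec]⟩
  refine ⟨_, congrArg _ (eq_tv_of_diag fun a b hab => ?_)⟩
  have q1 := rho_mul_inv g
  have q2 := mul_eq_one_comm.1 q1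
  have h3 := h2 _ hx (rho K g * diagonal (Pi.single a 1) * rho K g⁻¹) (by
    rw [e, hq.conj, ← conj_back q1 (ad _ _), ad_conj q1, conj_back q2, del_tv, ad_apply, diagonal_mul_diagonal,
      diagonal_mul_diagonal, sub_eq_zero.2 (congrArg diagonal (funext fun a => mul_comm _ _)), mul_zero, zero_mul])
  have h4 := ad_conj q1 (del K y) (rho K g * diagonal (Pi.single a 1) * rho K g⁻¹)
  rw [← hq.conj, h3, mul_zero, zero_mul, conj_back q2] at h4
  have h5 := congrFun (congrFun h4 a) b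
  rwa [ad_apply, Matrix.sub_apply, mul_diagonal, diagonal_mul, Pi.single_eq_same, Pi.single_eq_of_ne hab.symm, mul_zero,
    one_mul, zero_sub, Matrix.zero_apply, eq_comm, neg_eq_zero] at h5

/-- a subalgebra of semisimple elements is abelian -/
theorem cm_of_ss (hq : Eqv K) (C : Submodule K (chevE7.Idx → K))
    (hb : ∀ x ∈ C, ∀ y ∈ C, ∀ z, del K z = del K x * del K y - del K y * del K x → z ∈ C)
    (hs : ∀ x ∈ C, ∃ g l, x = adM K g *ᵥ tv l) : ∀ x ∈ C, ∀ y ∈ C, Cm x y := by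
  intro x hx y hy
  by_contra hc
  obtain ⟨g, l, e⟩ := hs x hx
  obtain ⟨_, ⟨v, hv, rfl⟩, h1, i, j, h2, h3⟩ := Dg.exists_eig (X := del K x) (by rw [e]; exact dg_tv hq g l)
    (C.map (del K)) (by
      rintro _ ⟨v, hv, rfl⟩
      obtain ⟨z, hz⟩ := exists_br x v
      exact ⟨z, hb x hx v hv z hz, hz⟩) ⟨y, hy, rfl⟩ fun h => hc (sub_eq_zero.1 h)
  obtain ⟨g', l', e'⟩ := hs v hv
  exact h1 (Dg.eig_zero (X := del K v) (by rw [e']; exact dg_tv hq g' l') h2 h3)

theorem toral_of_ss [Infinite K] (hq : Eqv K) (C : Submodule K (chevE7.Idx → K))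
    (hb : ∀ x ∈ C, ∀ y ∈ C, ∀ z, del K z = del K x * del K y - del K y * del K x → z ∈ C)
    (hs : ∀ x ∈ C, ∃ g l, x = adM K g *ᵥ tv l) : ∃ g : Gh K, ∀ x ∈ C, ∃ l, x = adM K g *ᵥ tv l :=
  toral_of_cm hq C hs (cm_of_ss hq C hb hs)

/-- **TORAL** (closed under nilpotent parts) -/
theorem toral [IsAlgClosed K] (hq : Eqv K) (C : Submodule K (chevE7.Idx → K))
    (hb : ∀ x ∈ C, ∀ y ∈ C, ∀ z, del K z = del K x * del K y - del K y * del K x → z ∈ C)
    (hj : ∀ x ∈ C, ∀ s z, Jd x s z → z ∈ C) (hn : ∀ z ∈ C, IsNilpotent (del K z) → z = 0) :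
    ∃ g : Gh K, ∀ x ∈ C, ∃ l, x = adM K g *ᵥ tv l :=
  toral_of_ss hq C hb fun x hx => by
    obtain ⟨s, z, h⟩ := jord hq x
    obtain ⟨g, l, -, -, e, -⟩ := h.std
    exact ⟨g, l, by rw [h.sum, hn z (hj x hx s z h) (h.nilp hq), add_zero, e]⟩

/-- **TORAL** (closed under semisimple parts) -/
theorem toral' [IsAlgClosed K] (hq : Eqv K) (C : Submodule K (chevE7.Idx → K))
    (hb : ∀ x ∈ C, ∀ y ∈ C, ∀ z, del K z = del K x * del K y - del K y * del K x → z ∈ C)
    (hj : ∀ x ∈ C, ∀ s z, Jd x s z → s ∈ C) (hn : ∀ z ∈ C, IsNilpotent (del K z) → z = 0) :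
    ∃ g : Gh K, ∀ x ∈ C, ∃ l, x = adM K g *ᵥ tv l :=
  toral hq C hb (fun x hx s z h => by
    have h1 := sub_mem hx (hj x hx s z h)
    rwa [h.sum, add_sub_cancel_left] at h1) hn

end Cfsg.Agent.E7P.La
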