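import Cfsg.Agent.E7P.Br.Lev
import Cfsg.Agent.E7P.Frm.Weyl
import Cfsg.Agent.R2.T2.Alg.Pow

/-!
# S5932, LIE 5: cubes (`p = 3`) and the truncated exponential EXP3 (`p` odd) (helper56)

* `exists_cube_zero`, `cube_fix` : cubes in characteristic `3` (existence: `R2.T2.Alg.exists_cube`);
* `Ex β d y z` : `y ∈ Ul β` and `rho y = 1 + Z + Z² / 2` up to levels `≥ 3 d`; `exp3` : existence;
* `Ex.ad`, `Ex.vec`, `Ex.ne_one`, `Ex.conj`, `Ex.unique`, `Ex.comm`; `eq_one_of_high`.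
-/

set_option autoImplicit false
set_option maxRecDepth 100000

namespace Cfsg.Agent.E7P.Lb

open Cfsg Cfsg.Lie Matrix Module
open Cfsg.Agent.H943.E7V.Block (D1 rho)
open Cfsg.Agent.R2.T1 Cfsg.Agent.E7P.Kf Cfsg.Agent.E7P.Br
open Cfsg.Agent.R2.PX (del)

universe u

variable {K : Type u} [Field K]

/-! ### cubes -/

/-- a set which is closed under cubes and contains a nilpotent element contains an element of cube zero -/
theorem exists_cube_zero (h3 : (3 : K) = 0) {C : Set (chevE7.Idx → K)}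
    (hC : ∀ z ∈ C, ∀ w, del K w = del K z * del K z * del K z → w ∈ C) {z : chevE7.Idx → K} (hz : z ∈ C) (h0 : z ≠ 0)
    (hn : IsNilpotent (del K z)) : ∃ w ∈ C, w ≠ 0 ∧ del K w * del K w * del K w = 0 := by
  obtain ⟨n, hn⟩ := hn
  induction n generalizing z with
  | zero => exact absurd (Mu.del_inj (by rw [← mul_one (del K z), ← pow_zero (del K z), hn, mul_zero])) h0
  | succ n ih =>
    obtain ⟨w, hw⟩ := R2.T2.Alg.exists_cube h3 z
    by_cases h : w = 0
    · exact ⟨z, hz, h0, by rw [← hw, h, map_zero]⟩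
    refine ih (hC z hz w hw) h ?_
    rcases n with _ | n
    · exact absurd (Mu.del_inj (by rwa [zero_add, pow_one] at hn)) h0
    · rw [hw, ← pow_three', ← pow_mul]
      exact pow_eq_zero_of_le (by omega) hn

theorem cube_fix (h2 : (2 : K) ≠ 0) {g : Gh K} {z w : chevE7.Idx → K} (hw : del K w = del K z * del K z * del K z)
    (h : adM K g *ᵥ z = z) : adM K g *ᵥ w = w := by
  have h1 := R2.PX.del_equi h2 g z
  rw [h] at h1
  refine Mu.del_injective ?_
  have h3 : Commute (rho K g) (del K z) := h1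
  rw [del_adM h2, hw, ((h3.mul_right h3).mul_right h3).eq, mul_assoc, ← map_mul (rho K), mul_inv_cancel, map_one, mul_one]

/-- a non-trivial element of the unipotent radical has a power of order `p` -/
theorem exists_pow_p {p : ℕ} (hp : p.Prime) [CharP K p] {β : E} {y : Gh K} (hy : y ∈ Ul K β) (h : y ≠ 1) :
    ∃ n : ℕ, y ^ n ≠ 1 ∧ (y ^ n) ^ p = 1 := by
  have h1 : ∃ k, y ^ p ^ k = 1 := ⟨56, pow_eq_one_of_STri hp hy.2⟩
  classical
  obtain ⟨k, hk⟩ : ∃ k, Nat.find h1 = k + 1 := Nat.exists_eq_succ_of_ne_zero fun h0 => h (by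
    have h2 := Nat.find_spec h1
    rwa [h0, pow_zero, pow_one] at h2)
  refine ⟨p ^ k, Nat.find_min h1 (by omega), ?_⟩
  rw [← pow_mul, ← pow_succ, ← hk]
  exact Nat.find_spec h1

/-! ### the truncated exponential -/

variable {β : E} {c d : ℝ} {x x' z : chevE7.Idx → K} {y y' : Gh K}

theorem Ge_induction (hd : 0 < d) {P : (chevE7.Idx → K) → Prop} (h0 : P 0)
    (ha : ∀ x ∈ Ge K ac β d, ∀ x' ∈ Ge K ac β d, P x → P x' → P (x + x'))
    (hs : ∀ r : Fin chevE7.nroots, d ≤ bf β (rv r) → ∀ t, P (Pi.single (Sum.inr r) t)) (hz : z ∈ Ge K ac β d) : P z := by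
  rw [← Finset.univ_sum_single z]
  refine (Finset.sum_induction _ (fun x => x ∈ Ge K ac β d ∧ P x)
    (fun a b h h' => ⟨add_mem h.1 h'.1, ha a h.1 b h'.1 h.2 h'.2⟩) ⟨zero_mem _, h0⟩ fun i _ => ?_).2
  by_cases h : z i = 0
  · rw [h, Pi.single_zero]
    exact ⟨zero_mem _, h0⟩
  have h1 := hz i h
  refine ⟨fun j hj => ?_, ?_⟩
  · obtain rfl : j = i := by
      by_contra h2
      exact hj (Pi.single_eq_of_ne h2 _)
    exact h1
  · rcases i with i | r
    · rw [ac_inl, cv_zero, map_zero] at h1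
      exact absurd h1 (not_le.2 hd)
    · exact hs r h1 _

theorem eq_zero_of_high (hc : 0 < c) (hM : ∀ r < 126, bf β (rv r) < c) (hz : z ∈ Ge K ac β c) : z = 0 :=
  Ge_induction hc (P := fun z => z = 0) rfl (fun _ _ _ _ h h' => by rw [h, h', add_zero])
    (fun r h => absurd h (not_le.2 (hM r r.2))) hz

theorem tv_mem (β : E) (l : Fin 7 → K) : tv l ∈ Ge K ac β 0 := by
  rintro (i | r) h
  · rw [ac_inl, cv_zero, map_zero]
  · exact absurd rfl h

theorem del_tv (l : Fin 7 → K) : del K (tv l) = diagonal fun b => ∑ i, l i * (wc b i : K) := by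
  rw [R2.PX.del_apply]
  simp only [tv_inr, zero_smul, Finset.sum_const_zero, add_zero]
  ext a b
  rw [Matrix.sum_apply]
  by_cases h : a = b
  · subst h
    rw [diagonal_apply_eq]
    exact Finset.sum_congr rfl fun i _ => by rw [Matrix.smul_apply, R2.PX.Hi, diagonal_apply_eq]; rfl
  · rw [diagonal_apply_ne _ h]
    exact Finset.sum_eq_zero fun i _ => by rw [Matrix.smul_apply, R2.PX.Hi, diagonal_apply_ne _ h, smul_zero]

/-- the weights of `V` are distinct modulo an odd prime -/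
theorem wc_cast_inj (h2 : (2 : K) ≠ 0) {a b : D1} (h : ∀ i, (wc a i : K) = (wc b i : K)) : a = b := by
  refine wc_inj (funext fun i => ?_)
  have h1 := h i
  have h3 : (1 : K) ≠ -1 := fun e => h2 (by linear_combination e)
  unfold wc at h1 ⊢
  rcases R2.T2.Alg.cartan_cases i.2 a with e | e | e <;> rcases R2.T2.Alg.cartan_cases i.2 b with e' | e' | e' <;>
    rw [e, e'] at h1 ⊢ <;> simp [h3, h3.symm] at h1

/-- a matrix which commutes with the toral elements is diagonal -/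
theorem diag_of_tv (h2 : (2 : K) ≠ 0) {A : Matrix D1 D1 K} (h : ∀ l, A * del K (tv l) = del K (tv l) * A) {a b : D1}
    (hab : A a b ≠ 0) : a = b := by
  refine wc_cast_inj h2 fun i => ?_
  have h1 := congrFun (congrFun (h (Pi.single i 1)) a) b
  rw [del_tv, mul_diagonal, diagonal_mul, mul_comm] at h1
  simpa [Pi.single_apply] using (mul_right_cancel₀ hab h1).symm

theorem adM_sub_mem (h2 : (2 : K) ≠ 0) (hy : y ∈ Pl K β) (h : rho K y * del K x - del K x * rho K y ∈ MGe K wc β c) :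
    adM K y *ᵥ x - x ∈ Ge K ac β c := by
  have h1 := MGe_mul h (Pl_MGe wrep_V (inv_mem hy))
  rwa [sub_mul, mul_assoc (del K x), ← map_mul, mul_inv_cancel, map_one, mul_one, ← del_adM h2, ← map_sub, add_zero,
    del_MGe] at h1

/-- an element which raises the levels by more than all roots is trivial -/
theorem eq_one_of_high (h2 : (2 : K) ≠ 0) (hc : 0 < c) (hM : ∀ r < 126, bf β (rv r) < c) (hy : y ∈ Pl K β)
    (h : rho K y - 1 ∈ MGe K wc β c) : y = 1 := by
  refine rho_injective ?_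
  rw [map_one, ← sub_eq_zero]
  ext a b
  by_contra hab
  have h1 := h a b hab
  rw [diag_of_tv h2 (fun l => ?_) hab] at h1
  · linarith
  · have h3 := del_MGe.2 (tv_mem β l)
    have h4 := MGe_mul h h3
    have h5 := MGe_mul h3 h
    rw [add_zero] at h4
    rw [zero_add] at h5
    have h6 := eq_zero_of_high hc hM (adM_sub_mem h2 hy (x := tv l) (by
      convert sub_mem h4 h5 using 1
      noncomm_ring))
    have h7 := R2.PX.del_equi h2 y (tv l)
    rw [sub_eq_zero.1 h6] at h7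
    rw [sub_mul, mul_sub, h7, one_mul, mul_one]

/-- the truncated exponential -/
noncomputable def ex (X : Matrix D1 D1 K) : Matrix D1 D1 K := 1 + X + (2 : K)⁻¹ • (X * X)

/-- `y` is the exponential of `z` up to level `3 d` -/
def Ex (β : E) (d : ℝ) (y : Gh K) (z : chevE7.Idx → K) : Prop :=
  y ∈ Ul K β ∧ rho K y - (1 + del K z + (2 : K)⁻¹ • (del K z * del K z)) ∈ MGe K wc β (3 * d)

theorem ex_mem (hd : 0 < d) {X : Matrix D1 D1 K} (hX : X ∈ MGe K wc β d) : ex X ∈ MGe K wc β 0 :=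
  add_mem (add_mem one_MGe (MGe_mono hd.le hX)) (Submodule.smul_mem _ _ (MGe_mono (by linarith) (MGe_mul hX hX)))

theorem Ex.congr (hd : 0 < d) (h : Ex β d y x) (hx : x ∈ Ge K ac β d) (hx' : x' ∈ Ge K ac β d)
    (h' : x - x' ∈ Ge K ac β (3 * d)) : Ex β d y x' := by
  rw [← del_MGe] at hx hx' h'
  rw [map_sub] at h'
  refine ⟨h.1, ?_⟩
  convert add_mem h.2 (add_mem h' (Submodule.smul_mem _ (2 : K)⁻¹ (add_mem (MGe_mono (by linarith) (MGe_mul hx h'))
    (MGe_mono (by linarith) (MGe_mul h' hx'))))) using 1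
  simp only [mul_sub, sub_mul]
  module

theorem Ex.mul (h2 : (2 : K) ≠ 0) (hd : 0 < d) (h : Ex β d y x) (h' : Ex β d y' x') (hx : x ∈ Ge K ac β d)
    (hx' : x' ∈ Ge K ac β d) : Ex β d (y * y') (x + x' + (2 : K)⁻¹ • br K x x') := by
  have hB := del_MGe.2 (br_Ge hx hx')
  rw [← del_MGe] at hx hx'
  refine ⟨mul_mem h.1 h'.1, ?_⟩
  have a1 := MGe_mul h.2 (Pl_MGe wrep_V h'.1.1)
  have a2 := MGe_mul (ex_mem hd hx) h'.2
  rw [add_zero] at a1
  rw [zero_add] at a2
  have a3 : ∀ {A B C : Matrix D1 D1 K}, A ∈ MGe K wc β d → B ∈ MGe K wc β d → C ∈ MGe K wc β d →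
      A * (B * C) ∈ MGe K wc β (3 * d) := fun hA hB hC => MGe_mono (by linarith) (MGe_mul hA (MGe_mul hB hC))
  have a4 : (del K x + del K x') * del K (br K x x') ∈ MGe K wc β (3 * d) :=
    MGe_mono (by linarith) (MGe_mul (add_mem hx hx') hB)
  have a5 : del K (br K x x') * (del K x + del K x') ∈ MGe K wc β (3 * d) :=
    MGe_mono (by linarith) (MGe_mul hB (add_mem hx hx'))
  have a6 : del K (br K x x') * del K (br K x x') ∈ MGe K wc β (3 * d) := MGe_mono (by linarith) (MGe_mul hB hB)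
  have a7 : del K x * del K x * (del K x' * del K x') ∈ MGe K wc β (3 * d) :=
    MGe_mono (by linarith) (MGe_mul (MGe_mul hx hx) (MGe_mul hx' hx'))
  have a8 := del_br x x'
  rw [map_add, map_add, map_smul, map_mul]
  generalize del K (br K x x') = B at *
  generalize del K x = X at *
  generalize del K x' = X' at *
  have e : (2 : K)⁻¹ * 2 = 1 := inv_mul_cancel₀ h2
  unfold ex at a2
  generalize (2 : K)⁻¹ = t at *
  convert add_mem (add_mem a1 a2) (sub_mem (add_mem (Submodule.smul_mem _ t (add_mem (a3 hx hx' hx') (a3 hx hx hx')))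
    (Submodule.smul_mem _ (t * t) a7)) (add_mem (Submodule.smul_mem _ (t * t) (add_mem a4 a5))
      (Submodule.smul_mem _ (t * t * t) a6))) using 1
  have e1 : X * X' = t • B + t • (X * X' + X' * X) := by
    rw [a8, ← smul_add, sub_add_add_cancel, ← two_smul K, smul_smul, e, one_smul]
  simp only [mul_sub, sub_mul, mul_add, add_mul, one_mul, mul_one, Matrix.smul_mul, Matrix.mul_smul, mul_assoc]
  linear_combination (norm := module) e1

theorem Ex.xs {r : Fin chevE7.nroots} (h : 0 < bf β (rv r)) (d : ℝ) (t : K) :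
    Ex β d (xs K r t) (Pi.single (Sum.inr r) t) := by
  refine ⟨xs_mem_Ul r.2 h t, ?_⟩
  have h1 : del K (Pi.single (Sum.inr r) t) = t • NM K r := by
    rw [← R2.PX.del_inr, ← map_smul, ← Pi.single_smul, smul_eq_mul, mul_one]
  rw [h1, rho_xs' r.2, Matrix.smul_mul, Matrix.mul_smul, R2.PX.NM_mul_self r.2, smul_zero, smul_zero, smul_zero, add_zero,
    sub_self]
  exact zero_mem _

theorem Ex.one (β : E) (d : ℝ) : Ex β d (1 : Gh K) 0 := ⟨one_mem _, by simp⟩

theorem exp_step (h2 : (2 : K) ≠ 0) (hd : 0 < d) (hc : d ≤ c) (H : ∀ u ∈ Ge K ac β (c + c), ∃ y : Gh K, Ex β d y u)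
    (hz : z ∈ Ge K ac β c) : ∃ y, Ex β d y z := by
  refine Ge_induction (hd.trans_le hc) (P := fun z => ∃ y, Ex β d y z) ⟨1, Ex.one β d⟩ ?_
    (fun r h t => ⟨_, Ex.xs (by linarith) d t⟩) hz
  rintro x hx x' hx' ⟨y, hy⟩ ⟨y', hy'⟩
  have a1 := Submodule.smul_mem _ (2 : K)⁻¹ (br_Ge hx hx')
  obtain ⟨y'', hy''⟩ := H _ (neg_mem a1)
  have a2 := Ge_mono hc (add_mem hx hx')
  have a3 := add_mem a2 (Ge_mono (by linarith) a1)
  have a4 : -((2 : K)⁻¹ • br K x x') ∈ Ge K ac β d := Ge_mono (by linarith) (neg_mem a1)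
  have a5 : (2 : K)⁻¹ • br K (x + x' + (2 : K)⁻¹ • br K x x') (-((2 : K)⁻¹ • br K x x')) ∈ Ge K ac β (3 * d) :=
    Submodule.smul_mem _ _ (Ge_mono (by linarith) (br_Ge a3 (neg_mem a1)))
  refine ⟨_, ((hy.mul h2 hd hy' (Ge_mono hc hx) (Ge_mono hc hx')).mul h2 hd hy'' a3 a4).congr hd
    (add_mem (add_mem a3 a4) (Ge_mono (by linarith) a5)) a2 ?_⟩
  rwa [add_neg_cancel_right, add_sub_cancel_left]

/-- **EXP3** -/
theorem exp3 (h2 : (2 : K) ≠ 0) (hd : 0 < d) (hz : z ∈ Ge K ac β d) : ∃ y, Ex β d y z :=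
  exp_step h2 hd le_rfl (fun _ hu => exp_step h2 hd (by linarith) (fun u hu => ⟨1, (Ex.one β d).congr hd (zero_mem _)
    (Ge_mono (by linarith) hu) (by rw [zero_sub]; exact neg_mem (Ge_mono (by linarith) hu))⟩) hu) hz

/-- the action on the elements which commute with `z` -/
theorem Ex.ad (h2 : (2 : K) ≠ 0) (h : Ex β d y z) (hx : x ∈ Ge K ac β c) (hc : Cm z x) :
    adM K y *ᵥ x - x ∈ Ge K ac β (c + 3 * d) := by
  rw [← del_MGe] at hx
  refine adM_sub_mem h2 h.1.1 ?_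
  have h1 := MGe_mul h.2 hx
  rw [add_comm (3 * d)] at h1
  convert sub_mem h1 (MGe_mul hx h.2) using 1
  have h3 : del K z * del K z * del K x = del K x * (del K z * del K z) := by
    rw [mul_assoc, hc, ← mul_assoc, hc, mul_assoc]
  simp only [mul_sub, sub_mul, mul_add, add_mul, one_mul, mul_one, Matrix.smul_mul, Matrix.mul_smul, h3, hc.symm]
  abel

/-- the action on the vectors which are killed by `z` -/
theorem Ex.vec (h : Ex β d y z) {v : D1 → K} (hv : v ∈ Ge K wc β c) (h0 : del K z *ᵥ v = 0) :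
    rho K y *ᵥ v - v ∈ Ge K wc β (c + 3 * d) := by
  have h1 := MGe_mulVec h.2 hv
  rwa [sub_mulVec, add_mulVec, add_mulVec, smul_mulVec, ← mulVec_mulVec, h0, mulVec_zero, smul_zero, add_zero, add_zero,
    one_mulVec] at h1

theorem Ex.ne_one (hd : 0 < d) (h : Ex β d y z) (hz : z ∈ Ge K ac β d) (h0 : z ∉ Ge K ac β (3 * d)) : y ≠ 1 := by
  rintro rfl
  refine h0 (mem_Ge_of_step fun e he h1 => ?_)
  by_cases h3 : e < d
  · exact Ge_le_Gt h3 hz
  rw [← del_MGe] at h1
  rw [← del_MGt]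
  convert sub_mem (neg_mem (MGe_le_MGt he h.2))
    (Submodule.smul_mem _ (2 : K)⁻¹ (MGe_le_MGt (by linarith) (MGe_mul h1 h1))) using 1
  rw [map_one]
  abel

theorem Ex.ne_one' (hd : 0 < d) (hM : ∀ r < 126, bf β (rv r) < 3 * d) (h : Ex β d y z) (hz : z ∈ Ge K ac β d)
    (h0 : z ≠ 0) : y ≠ 1 := h.ne_one hd hz fun h1 => h0 (eq_zero_of_high (by linarith) hM h1)

theorem Ex.conj (h2 : (2 : K) ≠ 0) (h : Ex β d y z) {g : Gh K} (hg : g ∈ Pl K β) : Ex β d (g * y * g⁻¹) (adM K g *ᵥ z) := by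
  refine ⟨Ul_conj hg h.1, ?_⟩
  convert conj_MGe wrep_V hg (inv_mem hg) h.2 using 1
  have h1 : rho K g * rho K g⁻¹ = 1 := by rw [← map_mul, mul_inv_cancel, map_one]
  have h3 : ∀ A, rho K g⁻¹ * (rho K g * A) = A := fun A => by rw [← mul_assoc, ← map_mul, inv_mul_cancel, map_one, one_mul]
  simp only [del_adM h2, map_mul, mul_sub, sub_mul, mul_add, add_mul, mul_one, Matrix.smul_mul, Matrix.mul_smul, mul_assoc,
    h1, h3]

theorem Ex.unique (h2 : (2 : K) ≠ 0) (hd : 0 < d) (hM : ∀ r < 126, bf β (rv r) < 3 * d) (h : Ex β d y z)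
    (h' : Ex β d y' z) : y = y' := by
  refine mul_inv_eq_one.1 (eq_one_of_high h2 (by linarith) hM (mul_mem h.1.1 (inv_mem h'.1.1)) ?_)
  have h1 := MGe_mul (sub_mem h.2 h'.2) (Pl_MGe wrep_V (inv_mem h'.1.1))
  rwa [sub_sub_sub_cancel_right, sub_mul, ← map_mul, ← map_mul, mul_inv_cancel, map_one, add_zero] at h1

theorem Ex.comm (h2 : (2 : K) ≠ 0) (hd : 0 < d) (hM : ∀ r < 126, bf β (rv r) < 3 * d) (h : Ex β d y z) {g : Gh K}
    (hg : g ∈ Pl K β) (hz : adM K g *ᵥ z = z) : g * y = y * g := by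
  have h1 := h.conj h2 hg
  rw [hz] at h1
  exact mul_inv_eq_iff_eq_mul.1 (h1.unique h2 hd hM h)

end Cfsg.Agent.E7P.Lb
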